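import Mathlib
import Cfsg.Prelude.Def_LieTypeDatum

/-!
# Outer automorphisms of orthogonal groups: definitions

`Ind Q β g σ`: the automorphism `β` of `PΩ(Q)` is induced by the semisimilarity pair `(g, σ)`.
`tpow g σ k`: the matrix of the `k`-th power of the semilinear map `v ↦ g σ(v)`.
-/

set_option autoImplicit false

namespace Cfsg.Agent.Lib.Helper52.OU

variable {ι : Type} [Fintype ι] [DecidableEq ι] {F : Type*} [Field F]

/-- `β` is induced by the semisimilarity pair `(g, σ)`. -/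
def Ind (Q : (ι → F) → F) (β : MulAut (Cfsg.POmega F Q)) (g : GL ι F) (σ : F ≃+* F) : Prop :=
  Cfsg.IsSemisimilarityPair Q g σ ∧ Cfsg.IsInducedBySemilinearPOmega Q g σ β

/-- The matrix of the `k`-th power of the semilinear map `v ↦ g σ(v)`:
`g * σ(g) * σ²(g) * ... * σ^(k-1)(g)`. -/
def tpow (g : GL ι F) (σ : F ≃+* F) : ℕ → GL ι F
  | 0 => 1
  | (k + 1) => g * Matrix.GeneralLinearGroup.map (σ : F →+* F) (tpow g σ k)

@[simp] theorem tpow_zero (g : GL ι F) (σ : F ≃+* F) : tpow g σ 0 = 1 := rfl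

theorem tpow_succ (g : GL ι F) (σ : F ≃+* F) (k : ℕ) :
    tpow g σ (k + 1) = g * Matrix.GeneralLinearGroup.map (σ : F →+* F) (tpow g σ k) := rfl

end Cfsg.Agent.Lib.Helper52.OU
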