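import Mathlib
import Cfsg.Agent.Lib.Helper18.LSDefs
import Cfsg.Agent.Lib.Helper18.WRDefs

/-!
# Project WR (helper18, S2347), piece TRIVB (helper52)
-/

set_option autoImplicit false

namespace Cfsg.Agent.Lib.Helper18.WR

open Matrix

universe u

variable {F : Type u} [Field F] {n : ℕ}

-- piece TRIVB
theorem triv_contra {E : Type*} [AddCommGroup E] [Module ℂ E] [FiniteDimensional ℂ E]
    (P S : Module.End ℂ E) (hPP : P * P = 1) (hSP : P * S = S * P)
    (h : ∀ D : Module.End ℂ E, ∃ α β : ℂ,
      (1 - P) * D * (1 - P) = α • (1 - P) + β • (S * (1 - P)))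
    (hfr : 2 ≤ Module.finrank ℂ (LinearMap.ker (P + 1))) : False := by
  -- the two spanning operators commute
  have hT : (1 - P) * (S * (1 - P)) = (S * (1 - P)) * (1 - P) := by
    have h1 : (1 - P) * S = S * (1 - P) := by
      rw [sub_mul, mul_sub, one_mul, mul_one, hSP]
    rw [← mul_assoc, h1]
  have c1 : Commute (1 - P) (S * (1 - P)) := hT
  have hcomm : ∀ D D' : Module.End ℂ E,
      ((1 - P) * D * (1 - P)) * ((1 - P) * D' * (1 - P)) =
        ((1 - P) * D' * (1 - P)) * ((1 - P) * D * (1 - P)) := by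
    intro D D'
    obtain ⟨α, β, e⟩ := h D
    obtain ⟨α', β', e'⟩ := h D'
    rw [e, e']
    have : Commute (α • (1 - P) + β • (S * (1 - P))) (α' • (1 - P) + β' • (S * (1 - P))) := by
      refine Commute.add_left (Commute.add_right ?_ ?_) (Commute.add_right ?_ ?_)
      · exact ((Commute.refl _).smul_right _).smul_left _
      · exact (c1.smul_right _).smul_left _
      · exact (c1.symm.smul_right _).smul_left _
      · exact ((Commute.refl _).smul_right _).smul_left _
    exact this
  -- two independent vectors of the `-1`-eigenspace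
  have hK1 : 1 < Module.finrank ℂ (LinearMap.ker (P + 1)) := by omega
  have hpos : 0 < Module.finrank ℂ (LinearMap.ker (P + 1)) := by omega
  obtain ⟨x, hx⟩ := (Module.finrank_pos_iff_exists_ne_zero).1 hpos
  obtain ⟨y, hy⟩ := exists_linearIndependent_pair_of_one_lt_finrank hK1 hx
  rw [LinearIndependent.pair_iff] at hy
  have hind : ∀ s t : ℂ, s • (x : E) + t • (y : E) = 0 → s = 0 ∧ t = 0 := by
    intro s t hst
    apply hy s t
    apply Subtype.ext
    simpa using hst
  have hPx : P (x : E) = -(x : E) := by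
    have := x.2
    rw [LinearMap.mem_ker, LinearMap.add_apply, Module.End.one_apply] at this
    exact eq_neg_of_add_eq_zero_left this
  have hPy : P (y : E) = -(y : E) := by
    have := y.2
    rw [LinearMap.mem_ker, LinearMap.add_apply, Module.End.one_apply] at this
    exact eq_neg_of_add_eq_zero_left this
  have hQx : (1 - P) (x : E) = (2 : ℂ) • (x : E) := by
    rw [LinearMap.sub_apply, Module.End.one_apply, hPx, two_smul, sub_neg_eq_add]
  have hQy : (1 - P) (y : E) = (2 : ℂ) • (y : E) := by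
    rw [LinearMap.sub_apply, Module.End.one_apply, hPy, two_smul, sub_neg_eq_add]
  -- the functionals
  have hxy : (x : E) ∉ Submodule.span ℂ {(y : E)} := by
    intro hmem
    obtain ⟨c, hc⟩ := Submodule.mem_span_singleton.1 hmem
    have := (hind 1 (-c) (by rw [one_smul, neg_smul, hc, add_neg_cancel])).1
    exact one_ne_zero this
  have hyx : (y : E) ∉ Submodule.span ℂ {(x : E)} := by
    intro hmem
    obtain ⟨c, hc⟩ := Submodule.mem_span_singleton.1 hmem
    have := (hind (-c) 1 (by rw [one_smul, neg_smul, hc, neg_add_cancel])).2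
    exact one_ne_zero this
  obtain ⟨φ₁, hφ₁x, hφ₁⟩ := Submodule.exists_dual_map_eq_bot_of_notMem hxy inferInstance
  obtain ⟨φ₂, hφ₂y, hφ₂⟩ := Submodule.exists_dual_map_eq_bot_of_notMem hyx inferInstance
  have hφ₁y : φ₁ (y : E) = 0 := by
    have : φ₁ (y : E) ∈ (Submodule.span ℂ {(y : E)}).map φ₁ :=
      Submodule.mem_map_of_mem (Submodule.mem_span_singleton_self _)
    rw [hφ₁] at this
    exact (Submodule.mem_bot ℂ).1 this
  have hφ₂x : φ₂ (x : E) = 0 := by
    have : φ₂ (x : E) ∈ (Submodule.span ℂ {(x : E)}).map φ₂ :=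
      Submodule.mem_map_of_mem (Submodule.mem_span_singleton_self _)
    rw [hφ₂] at this
    exact (Submodule.mem_bot ℂ).1 this
  -- the two operators
  set D₁ : Module.End ℂ E := φ₁.smulRight (y : E) with hD₁
  set D₂ : Module.End ℂ E := φ₂.smulRight (x : E) with hD₂
  have hX1x : ((1 - P) * D₁ * (1 - P)) (x : E) = (4 * φ₁ (x : E)) • (y : E) := by
    rw [Module.End.mul_apply, Module.End.mul_apply, hQx, map_smul, hD₁, LinearMap.smulRight_apply,
      map_smul, map_smul, hQy, smul_smul, smul_smul]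
    congr 1
    ring
  have hX1y : ((1 - P) * D₁ * (1 - P)) (y : E) = 0 := by
    rw [Module.End.mul_apply, Module.End.mul_apply, hQy, map_smul, hD₁, LinearMap.smulRight_apply,
      hφ₁y, zero_smul, smul_zero, map_zero]
  have hX2y : ((1 - P) * D₂ * (1 - P)) (y : E) = (4 * φ₂ (y : E)) • (x : E) := by
    rw [Module.End.mul_apply, Module.End.mul_apply, hQy, map_smul, hD₂, LinearMap.smulRight_apply,
      map_smul, map_smul, hQx, smul_smul, smul_smul]
    congr 1
    ring
  have hc : (((1 - P) * D₁ * (1 - P)) * ((1 - P) * D₂ * (1 - P))) (y : E) =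
      (((1 - P) * D₂ * (1 - P)) * ((1 - P) * D₁ * (1 - P))) (y : E) := by
    rw [hcomm D₁ D₂]
  have e1 : (((1 - P) * D₁ * (1 - P)) * ((1 - P) * D₂ * (1 - P))) (y : E) =
      ((1 - P) * D₁ * (1 - P)) (((1 - P) * D₂ * (1 - P)) (y : E)) := rfl
  have e2 : (((1 - P) * D₂ * (1 - P)) * ((1 - P) * D₁ * (1 - P))) (y : E) =
      ((1 - P) * D₂ * (1 - P)) (((1 - P) * D₁ * (1 - P)) (y : E)) := rfl
  rw [e1, e2, hX2y, hX1y, map_zero, map_smul, hX1x, smul_smul] at hc
  have hz := (hind 0 (4 * φ₂ (y : E) * (4 * φ₁ (x : E))) (by rw [zero_smul, zero_add, hc])).2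
  have h4 : (4 : ℂ) ≠ 0 := by norm_num
  rcases mul_eq_zero.1 hz with h' | h'
  · rcases mul_eq_zero.1 h' with h'' | h''
    · exact h4 h''
    · exact hφ₂y h''
  · rcases mul_eq_zero.1 h' with h'' | h''
    · exact h4 h''
    · exact hφ₁x h''

end Cfsg.Agent.Lib.Helper18.WR
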