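import Cfsg.Agent.Lib.Helper3.BG12Defs
import Cfsg.Agent.S0058
import Cfsg.Agent.Lib.Helper91.OrderP3

/-!
B&G section 12, piece P13G (for helper3): an extraspecial group `P₁` of order `p³` and exponent
`p` acting coprimely on `K`; if `C_K(U) ≤ Y` for all non-central subgroups `U` of order `p`,
then `K ≤ Y`.
-/

set_option autoImplicit false

open Cfsg Cfsg.Agent.Lib.Helper32 Cfsg.Agent.Lib.Helper32.BG10 Cfsg.Agent.Lib.Helper3.BG12

namespace Cfsg.Agent.Lib.Helper52.BG12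

universe u

/-- a quotient form of the generation theorem `S0058`: `A / Zs` commutative and non-cyclic. -/
theorem p13g_quot {Γ : Type u} [Group Γ] [Finite Γ] (Zs A C Y : Subgroup Γ) [Zs.Normal]
    (hZA : Zs ≤ A) (hAC : A ≤ Subgroup.normalizer (C : Set Γ))
    (hcomm : ∀ a ∈ A, ∀ b ∈ A, a * b * a⁻¹ * b⁻¹ ∈ Zs)
    (hncyc : ∀ g ∈ A, ∃ x ∈ A, ∀ k : ℤ, (g ^ k)⁻¹ * x ∉ Zs)
    (hcop : (Nat.card A).Coprime (Nat.card C))
    (hY : ∀ x ∈ A, x ∉ Zs → C ⊓ Subgroup.centralizer {x} ≤ Y) : C ≤ Y := by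
  classical
  obtain ⟨π, hπdef⟩ : ∃ π : Γ →* Γ ⧸ Zs, π = QuotientGroup.mk' Zs := ⟨_, rfl⟩
  have hπ : ∀ x y : Γ, π x = π y ↔ x⁻¹ * y ∈ Zs := by
    intro x y
    rw [hπdef]
    exact QuotientGroup.eq
  have hπ1 : ∀ x : Γ, π x = 1 ↔ x ∈ Zs := by
    intro x
    rw [hπdef]
    exact QuotientGroup.eq_one_iff x
  have hCZ : C ⊓ Zs = ⊥ := by
    apply disjoint_iff.mp
    apply Subgroup.disjoint_of_coprime_natCard
    exact (Nat.Coprime.coprime_dvd_left (Subgroup.card_dvd_of_le hZA) hcop).symm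
  have : IsMulCommutative ↥(A.map π) := ⟨⟨fun x y => by
    obtain ⟨a, ha, hax⟩ := x.2
    obtain ⟨b, hb, hby⟩ := y.2
    apply Subtype.ext
    show (x : Γ ⧸ Zs) * y = y * x
    rw [← hax, ← hby, ← map_mul, ← map_mul, hπ]
    have := hcomm b⁻¹ (A.inv_mem hb) a⁻¹ (A.inv_mem ha)
    simpa [mul_assoc] using this⟩⟩
  have hnc : ¬ IsCyclic ↥(A.map π) := by
    intro hcyc
    obtain ⟨g, hg⟩ := hcyc.exists_generator
    obtain ⟨g₀, hg₀A, hg₀⟩ := g.2
    obtain ⟨x, hxA, hx⟩ := hncyc g₀ hg₀A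
    obtain ⟨k, hk⟩ := Subgroup.mem_zpowers_iff.mp
      (hg ⟨π x, Subgroup.mem_map_of_mem π hxA⟩)
    apply hx k
    rw [← hπ]
    have h1 := congrArg Subtype.val hk
    simp only [Subgroup.coe_zpow] at h1
    rw [map_zpow, hg₀]
    exact h1
  have hnorm : A.map π ≤ Subgroup.normalizer ((C.map π : Subgroup (Γ ⧸ Zs)) : Set (Γ ⧸ Zs)) := by
    rintro _ ⟨a, ha, rfl⟩
    rw [Subgroup.mem_normalizer_iff]
    intro h
    constructor
    · rintro ⟨c, hc, rfl⟩
      refine ⟨a * c * a⁻¹, ?_, by simp⟩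
      exact (Subgroup.mem_normalizer_iff.mp (hAC ha) c).mp hc
    · rintro ⟨c, hc, hce⟩
      refine ⟨a⁻¹ * c * a, ?_, ?_⟩
      · have := (Subgroup.mem_normalizer_iff.mp (hAC (A.inv_mem ha)) c).mp hc
        simpa using this
      · rw [map_mul, map_mul, hce]
        simp [mul_assoc]
  have hcop' : (Nat.card ↥(A.map π)).Coprime (Nat.card ↥(C.map π)) :=
    Nat.Coprime.coprime_dvd_left (Subgroup.card_map_dvd A π)
      (Nat.Coprime.coprime_dvd_right (Subgroup.card_map_dvd C π) hcop)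
  have key := Cfsg.Agent.S0058.result (A.map π) (C.map π) hnc hnorm hcop'
  have hle : C.map π ≤ (Y ⊓ C).map π := by
    refine le_trans (le_of_eq key.symm) ?_
    apply iSup₂_le
    rintro xb ⟨hxbA, hxb1⟩
    obtain ⟨x, hxA, rfl⟩ := hxbA
    have hxZ : x ∉ Zs := fun h => hxb1 ((hπ1 x).mpr h)
    intro cb hcb
    obtain ⟨hcbC, hcbx⟩ := Subgroup.mem_inf.mp hcb
    obtain ⟨c, hcC, rfl⟩ := hcbC
    rw [Subgroup.mem_centralizer_singleton_iff] at hcbx
    have h1 : c⁻¹ * (x⁻¹ * c * x) ∈ Zs := by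
      rw [← hπ, map_mul, map_mul, map_inv, mul_assoc, hcbx, inv_mul_cancel_left]
    have h2 : x⁻¹ * c * x ∈ C := by
      have := (Subgroup.mem_normalizer_iff.mp (hAC (A.inv_mem hxA)) c).mp hcC
      simpa using this
    have h3 : c⁻¹ * (x⁻¹ * c * x) ∈ C ⊓ Zs := ⟨C.mul_mem (C.inv_mem hcC) h2, h1⟩
    rw [hCZ, Subgroup.mem_bot] at h3
    have h4 : c = x⁻¹ * c * x := inv_mul_eq_one.mp h3
    have h5 : c ∈ Subgroup.centralizer {x} := by
      rw [Subgroup.mem_centralizer_singleton_iff]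
      calc c * x = x * (x⁻¹ * c * x) := by group
        _ = x * c := by rw [← h4]
    exact Subgroup.mem_map_of_mem π ⟨hY x hxA hxZ ⟨hcC, h5⟩, hcC⟩
  intro c hc
  obtain ⟨y, hy, hyc⟩ := hle (Subgroup.mem_map_of_mem π hc)
  have h1 : y⁻¹ * c ∈ C ⊓ Zs := ⟨C.mul_mem (C.inv_mem hy.2) hc, (hπ y c).mp hyc⟩
  rw [hCZ, Subgroup.mem_bot] at h1
  rw [← inv_mul_eq_one.mp h1]
  exact hy.1

variable {G : Type u} [Group G]

theorem p13g_comm_sup {Z P₁ : Subgroup G} (hZP : Z ≤ P₁)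
    (hZc : ∀ z ∈ Z, ∀ g ∈ P₁, g * z = z * g) {g : G} (hg : g ∈ P₁) :
    ∀ x ∈ Z ⊔ Subgroup.zpowers g, ∀ y ∈ Z ⊔ Subgroup.zpowers g, x * y = y * x := by
  have hAP : Z ⊔ Subgroup.zpowers g ≤ P₁ := sup_le hZP (Subgroup.zpowers_le.mpr hg)
  have h1 : Z ⊔ Subgroup.zpowers g ≤ Subgroup.centralizer ({g} : Set G) := by
    refine sup_le ?_ ?_
    · intro z hz
      rw [Subgroup.mem_centralizer_singleton_iff]
      exact (hZc z hz g hg).symm
    · rw [Subgroup.zpowers_le, Subgroup.mem_centralizer_singleton_iff]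
  have h2 : Z ⊔ Subgroup.zpowers g ≤
      Subgroup.centralizer ((Z ⊔ Subgroup.zpowers g : Subgroup G) : Set G) := by
    refine sup_le ?_ ?_
    · intro z hz
      rw [Subgroup.mem_centralizer_iff]
      intro y hy
      exact hZc z hz y (hAP hy)
    · rw [Subgroup.zpowers_le, Subgroup.mem_centralizer_iff]
      intro y hy
      exact Subgroup.mem_centralizer_singleton_iff.mp (h1 hy)
  intro x hx y hy
  exact (Subgroup.mem_centralizer_iff.mp (h2 hx) y hy).symm

theorem p13g_cent_zpowers (x : G) :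
    Subgroup.centralizer ({x} : Set G) ≤ Subgroup.centralizer (Subgroup.zpowers x : Set G) := by
  intro y hy
  rw [Subgroup.mem_centralizer_singleton_iff] at hy
  rw [Subgroup.mem_centralizer_iff]
  rintro _ ⟨k, rfl⟩
  have hc : Commute y x := hy
  exact (hc.zpow_right k).eq.symm

variable [Finite G]

/-- P13G -/
theorem le_of_cent_noncentral_le {p : ℕ} [Fact p.Prime] {P₁ K Y : Subgroup G}
    (hP₁ : Nat.card P₁ = p ^ 3) (hnc : ¬ IsMulCommutative P₁) (hexp : Monoid.exponent P₁ = p)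
    (hPK : P₁ ≤ Subgroup.normalizer (K : Set G)) (hcop : (Nat.card K).Coprime p)
    (hY : ∀ U : Subgroup G, U ≤ P₁ → Nat.card U = p →
      U ≠ P₁ ⊓ Subgroup.centralizer (P₁ : Set G) →
      K ⊓ Subgroup.centralizer (U : Set G) ≤ Y) : K ≤ Y := by
  classical
  have hp : p.Prime := Fact.out
  have hna : ¬ ∀ a b : ↥P₁, a * b = b * a := fun h => hnc ⟨⟨h⟩⟩
  obtain ⟨hcZ, -, hcomm0⟩ := Cfsg.Agent.Lib.Helper91.OrderP3.center_facts (G := ↥P₁) p hP₁ hna
  revert hY
  generalize hZdef : P₁ ⊓ Subgroup.centralizer (P₁ : Set G) = Z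
  intro hY
  have hZP : Z ≤ P₁ := hZdef ▸ inf_le_left
  have hZc : ∀ z ∈ Z, ∀ g ∈ P₁, g * z = z * g := by
    intro z hz g hg
    rw [← hZdef] at hz
    exact Subgroup.mem_centralizer_iff.mp hz.2 g hg
  have hcen : ∀ x : ↥P₁, x ∈ Subgroup.center ↥P₁ ↔ (x : G) ∈ Z := by
    intro x
    rw [← hZdef, Subgroup.mem_inf, Subgroup.mem_center_iff, Subgroup.mem_centralizer_iff]
    constructor
    · intro h
      refine ⟨x.2, fun g hg => ?_⟩
      exact congrArg Subtype.val (h ⟨g, hg⟩)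
    · intro h g
      exact Subtype.ext (h.2 g g.2)
  have hZcard : Nat.card Z = p := by
    rw [← hcZ]
    refine Nat.card_congr ?_
    exact
      { toFun := fun z => ⟨⟨z.1, hZP z.2⟩, (hcen _).mpr z.2⟩
        invFun := fun c => ⟨(c.1 : G), (hcen c.1).mp c.2⟩
        left_inv := fun z => rfl
        right_inv := fun c => rfl }
  have hcommZ : ∀ a ∈ P₁, ∀ b ∈ P₁, a * b * a⁻¹ * b⁻¹ ∈ Z := by
    intro a ha b hb
    have h1 := (hcen _).mp (hcomm0 ⟨a, ha⟩ ⟨b, hb⟩)
    simpa [commutatorElement_def] using h1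
  have hpow : ∀ x ∈ P₁, x ^ p = 1 := by
    intro x hx
    have h1 := Monoid.pow_exponent_eq_one (⟨x, hx⟩ : ↥P₁)
    rw [hexp] at h1
    simpa using congrArg Subtype.val h1
  -- (F1)
  have hF1 : ∀ x ∈ P₁, x ∉ Z → K ⊓ Subgroup.centralizer ({x} : Set G) ≤ Y := by
    intro x hx hxZ
    have hx1 : x ≠ 1 := fun h => hxZ (h ▸ Z.one_mem)
    have hU := hY (Subgroup.zpowers x) (Subgroup.zpowers_le.mpr hx)
      (by rw [Nat.card_zpowers]; exact orderOf_eq_prime (hpow x hx) hx1)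
      (fun h => hxZ (h ▸ Subgroup.mem_zpowers x))
    exact le_trans (inf_le_inf_left K (p13g_cent_zpowers x)) hU
  -- step 2: `C ≤ Y`
  have hPcZ : P₁ ≤ Subgroup.centralizer (Z : Set G) := by
    intro g hg
    rw [Subgroup.mem_centralizer_iff]
    intro z hz
    exact (hZc z hz g hg).symm
  have hF2 : K ⊓ Subgroup.centralizer (Z : Set G) ≤ Y := by
    obtain ⟨C, hCdef⟩ : ∃ C : Subgroup G, C = K ⊓ Subgroup.centralizer (Z : Set G) := ⟨_, rfl⟩
    rw [← hCdef]
    obtain ⟨N, hNdef⟩ : ∃ N : Subgroup G, N = Subgroup.normalizer (Z : Set G) := ⟨_, rfl⟩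
    have hPN : P₁ ≤ N := hNdef ▸ hPcZ.trans (Subgroup.centralizer_le_normalizer _)
    have hCN : C ≤ N := by
      rw [hNdef, hCdef]
      exact inf_le_right.trans (Subgroup.centralizer_le_normalizer _)
    have hCK : C ≤ K := hCdef ▸ inf_le_left
    have hPC : P₁ ≤ Subgroup.normalizer (C : Set G) := by
      rw [Subgroup.le_normalizer_iff]
      intro g hg c hc
      rw [hCdef] at hc ⊢
      refine ⟨(Subgroup.le_normalizer_iff.mp hPK) g hg c hc.1, ?_⟩
      exact Subgroup.mul_mem _ (Subgroup.mul_mem _ (hPcZ hg) hc.2)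
        (Subgroup.inv_mem _ (hPcZ hg))
    have hZn : (Z.subgroupOf N).Normal := by
      rw [hNdef]
      infer_instance
    have hQ := p13g_quot (Γ := ↥N) (Z.subgroupOf N) (P₁.subgroupOf N) (C.subgroupOf N)
      (Y.subgroupOf N)
      (fun x hx => Subgroup.mem_subgroupOf.mpr (hZP (Subgroup.mem_subgroupOf.mp hx)))
      (by
        intro x hx
        rw [Subgroup.mem_normalizer_iff]
        intro h
        rw [Subgroup.mem_subgroupOf, Subgroup.mem_subgroupOf]
        have := Subgroup.mem_normalizer_iff.mp (hPC (Subgroup.mem_subgroupOf.mp hx)) (h : G)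
        simpa using this)
      (by
        intro a ha b hb
        rw [Subgroup.mem_subgroupOf]
        have := hcommZ a.1 (Subgroup.mem_subgroupOf.mp ha) b.1 (Subgroup.mem_subgroupOf.mp hb)
        simpa using this)
      (by
        intro g hg
        by_contra hcon
        push Not at hcon
        apply hna
        have hmem : ∀ x : ↥P₁, (x : G) ∈ Z ⊔ Subgroup.zpowers (g : G) := by
          intro x
          obtain ⟨k, hk⟩ := hcon ⟨x.1, hPN x.2⟩ (Subgroup.mem_subgroupOf.mpr x.2)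
          rw [Subgroup.mem_subgroupOf] at hk
          have hk' : ((g : G) ^ k)⁻¹ * (x : G) ∈ Z := by simpa using hk
          have e : (x : G) = (g : G) ^ k * (((g : G) ^ k)⁻¹ * (x : G)) := by group
          rw [e]
          exact Subgroup.mul_mem _
            ((le_sup_right : Subgroup.zpowers (g : G) ≤ _)
              (Subgroup.zpow_mem _ (Subgroup.mem_zpowers _) k))
            ((le_sup_left : Z ≤ _) hk')
        intro x y
        exact Subtype.ext (p13g_comm_sup hZP hZc (Subgroup.mem_subgroupOf.mp hg) x.1 (hmem x)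
          y.1 (hmem y)))
      (by
        rw [Nat.card_congr (Subgroup.subgroupOfEquivOfLe hPN).toEquiv,
          Nat.card_congr (Subgroup.subgroupOfEquivOfLe hCN).toEquiv, hP₁]
        exact Nat.Coprime.coprime_dvd_right (Subgroup.card_dvd_of_le hCK)
          (Nat.Coprime.pow_left 3 hcop.symm))
      (by
        intro x hx hxZ c hc
        rw [Subgroup.mem_subgroupOf]
        apply hF1 (x : G) (Subgroup.mem_subgroupOf.mp hx)
          (fun h => hxZ (Subgroup.mem_subgroupOf.mpr h))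
        refine Subgroup.mem_inf.mpr
          ⟨hCK (Subgroup.mem_subgroupOf.mp (Subgroup.mem_inf.mp hc).1), ?_⟩
        have h2 := (Subgroup.mem_inf.mp hc).2
        rw [Subgroup.mem_centralizer_singleton_iff] at h2 ⊢
        simpa using congrArg Subtype.val h2)
    intro c hc
    exact Subgroup.mem_subgroupOf.mp
      (hQ (Subgroup.mem_subgroupOf.mpr (show ((⟨c, hCN hc⟩ : ↥N) : G) ∈ C from hc)))
  -- step 1
  obtain ⟨a, haP, haZ⟩ : ∃ a ∈ P₁, a ∉ Z := by
    by_contra hcon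
    push Not at hcon
    apply hna
    intro x y
    exact Subtype.ext (hZc y.1 (hcon y.1 y.2) x.1 x.2)
  obtain ⟨A, hAdef⟩ : ∃ A : Subgroup G, A = Z ⊔ Subgroup.zpowers a := ⟨_, rfl⟩
  have hAP : A ≤ P₁ := by
    rw [hAdef]
    exact sup_le hZP (Subgroup.zpowers_le.mpr haP)
  have hZA : Z ≤ A := hAdef ▸ le_sup_left
  have haA : a ∈ A :=
    hAdef ▸ (le_sup_right : Subgroup.zpowers a ≤ _) (Subgroup.mem_zpowers a)
  have hAcomm : ∀ x ∈ A, ∀ y ∈ A, x * y = y * x := by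
    rw [hAdef]
    exact p13g_comm_sup hZP hZc haP
  have : IsMulCommutative ↥A := ⟨⟨fun x y => Subtype.ext (hAcomm x.1 x.2 y.1 y.2)⟩⟩
  have hAnc : ¬ IsCyclic ↥A := by
    intro hcyc
    have h1 : Monoid.exponent ↥A ∣ p :=
      Monoid.exponent_dvd_of_forall_pow_eq_one
        (fun x => Subtype.ext (by simpa using hpow x.1 (hAP x.2)))
    have h2 : Nat.card ↥A ∣ p := by
      rw [← IsCyclic.exponent_eq_card]
      exact h1
    have h4 : Z = A :=
      Subgroup.eq_of_le_of_card_ge hZA (by rw [hZcard]; exact Nat.le_of_dvd hp.pos h2)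
    exact haZ (h4 ▸ haA)
  have hcopA : (Nat.card A).Coprime (Nat.card K) :=
    Nat.Coprime.coprime_dvd_left (Subgroup.card_dvd_of_le hAP)
      (hP₁ ▸ Nat.Coprime.pow_left 3 hcop.symm)
  have key1 := Cfsg.Agent.S0058.result A K hAnc (hAP.trans hPK) hcopA
  refine le_trans (le_of_eq key1.symm) ?_
  apply iSup₂_le
  rintro x ⟨hxA, hx1⟩
  by_cases hxZ : x ∈ Z
  · have hZx : Subgroup.zpowers x = Z := by
      refine Subgroup.eq_of_le_of_card_ge (Subgroup.zpowers_le.mpr hxZ) ?_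
      rw [hZcard, Nat.card_zpowers, orderOf_eq_prime (hpow x (hZP hxZ)) hx1]
    refine le_trans (inf_le_inf_left K (p13g_cent_zpowers x)) ?_
    rw [hZx]
    exact hF2
  · exact hF1 x (hAP hxA) hxZ

end Cfsg.Agent.Lib.Helper52.BG12
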