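import Mathlib
import Cfsg.Agent.Lib.Helper52.OmegaGeom
import Cfsg.Agent.Lib.Helper51.DicksonTwo

/-!
Involutions of orthogonal groups in characteristic two: an involution either fixes a
non-singular vector (then its `O`-class does not split in `Ω`, because the reflection in that
vector centralises it), or its fixed space is a totally singular subspace of half the dimension,
equal to the image of `t - 1`. Also: a totally singular subspace of the minus-type form
`QMinus k F c d` has dimension at most `k`.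
-/

set_option autoImplicit false
set_option linter.unusedSectionVars false

namespace Cfsg.Agent.Lib.Helper52

open Module QuadraticMap
open Cfsg.Agent.Lib.Helper51

section Invol

variable {ι : Type} [Fintype ι] [DecidableEq ι] {F : Type*} [Field F]
variable (Q : QuadraticForm F (ι → F))

/-- If `t` fixes a non-singular vector, every `O`-conjugate of `t` is an `Ω`-conjugate
(characteristic two). -/
theorem exists_conj_mem_commutator_two [Fintype F] (h2 : (2 : F) = 0)
    (hQ : (polarBilin Q).Nondegenerate) (h : Fintype.card F ≠ 2 ∨ Fintype.card ι ≠ 4)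
    (t s g : ↥(Cfsg.isometryGroup F ⇑Q)) (hg : g * t * g⁻¹ = s) (u : ι → F) (hu : Q u ≠ 0)
    (htu : ((t : Matrix.GeneralLinearGroup ι F) : Matrix ι ι F).mulVec u = u) :
    ∃ g' ∈ commutator ↥(Cfsg.isometryGroup F ⇑Q), g' * t * g'⁻¹ = s := by
  have hgen := closure_reflSet_eq_top_of_finite Q hQ h
  have hΩ := commutator_eq_pair_two Q h2 hQ h
  have hcomm : t * refl Q u hu * t⁻¹ = refl Q u hu := by
    rw [conj_refl Q t u hu (by rw [htu]; exact hu)]
    apply isometry_ext
    rw [coe_refl, coe_refl, htu]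
  have hcomm' : (refl Q u hu)⁻¹ * t * refl Q u hu = t := by
    have h1 : t * refl Q u hu = refl Q u hu * t := mul_inv_eq_iff_eq_mul.mp hcomm
    rw [mul_assoc, h1, inv_mul_cancel_left]
  rcases mem_or_forall_refl Q hgen g⁻¹ with h1 | h1
  · refine ⟨g, ?_, hg⟩
    rw [hΩ]
    exact inv_mem_iff.mp h1
  · have h3 := inv_mem (h1 _ (refl_mem_reflSet Q u hu))
    rw [mul_inv_rev, inv_inv] at h3
    refine ⟨g * (refl Q u hu)⁻¹, ?_, ?_⟩
    · rw [hΩ]; exact h3
    · rw [mul_inv_rev, inv_inv, ← hg]
      have : g * (refl Q u hu)⁻¹ * t * (refl Q u hu * g⁻¹)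
          = g * ((refl Q u hu)⁻¹ * t * refl Q u hu) * g⁻¹ := by group
      rw [this, hcomm']

/-- An involution in characteristic two either fixes a non-singular vector, or its fixed space is
totally singular of half the dimension and equal to the image of `t - 1`. -/
theorem exists_fixed_nonsingular_or (h2 : (2 : F) = 0) (hQ : (polarBilin Q).Nondegenerate)
    (t : ↥(Cfsg.isometryGroup F ⇑Q)) (ht : t * t = 1) :
    (∃ u, Q u ≠ 0 ∧ ((t : Matrix.GeneralLinearGroup ι F) : Matrix ι ι F).mulVec u = u) ∨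
    ((∀ x ∈ fixSpace ((t : Matrix.GeneralLinearGroup ι F) : Matrix ι ι F), Q x = 0) ∧
      2 * finrank F (fixSpace ((t : Matrix.GeneralLinearGroup ι F) : Matrix ι ι F))
        = Fintype.card ι ∧
      LinearMap.range (((t : Matrix.GeneralLinearGroup ι F) : Matrix ι ι F) - 1).mulVecLin
        = fixSpace ((t : Matrix.GeneralLinearGroup ι F) : Matrix ι ι F)) := by
  by_cases hex : ∃ u, Q u ≠ 0 ∧ ((t : Matrix.GeneralLinearGroup ι F) : Matrix ι ι F).mulVec u = u
  · exact Or.inl hex
  · right
    push Not at hex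
    set M := ((t : Matrix.GeneralLinearGroup ι F) : Matrix ι ι F) with hM
    have hMM : M * M = 1 := by
      have := congrArg (fun x : ↥(Cfsg.isometryGroup F ⇑Q) =>
        ((x : Matrix.GeneralLinearGroup ι F) : Matrix ι ι F)) ht
      simpa [coe_mul'] using this
    have hts : ∀ x ∈ fixSpace M, Q x = 0 := by
      intro x hx
      by_contra hne
      exact hex x hne ((mem_fixSpace M x).mp hx)
    have hsq : (M - 1) * (M - 1) = 0 := by
      have h2M : (2 : Matrix ι ι F) = 0 := by
        have : (2 : Matrix ι ι F) = (2 : F) • (1 : Matrix ι ι F) := by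
          rw [two_smul]; norm_num
        rw [this, h2, zero_smul]
      have : (M - 1) * (M - 1) = M * M - 2 * M + 1 := by noncomm_ring
      rw [this, hMM, h2M, zero_mul, sub_zero, one_add_one_eq_two, h2M]
    have hle : LinearMap.range (M - 1).mulVecLin ≤ fixSpace M := by
      rintro y ⟨x, rfl⟩
      show (M - 1).mulVecLin ((M - 1).mulVecLin x) = 0
      rw [Matrix.mulVecLin_apply, Matrix.mulVecLin_apply, Matrix.mulVec_mulVec, hsq,
        Matrix.zero_mulVec]
    have hrk := finrank_fixSpace_add_rank M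
    have hmono := Submodule.finrank_mono hle
    have hrank : (M - 1).rank = finrank F (LinearMap.range (M - 1).mulVecLin) := rfl
    have hub := two_mul_finrank_le_of_ts Q hQ (fixSpace M) hts
    refine ⟨hts, by omega, ?_⟩
    apply Submodule.eq_of_le_of_finrank_eq hle
    omega

end Invol

section Minus

variable {F : Type*} [Field F] {k : ℕ}

/-- The totally singular subspace of the first `k` coordinates. -/
def embE (k : ℕ) (F : Type*) [Field F] : (Fin k → F) →ₗ[F] ((Fin k ⊕ Fin k) ⊕ Fin 2 → F) where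
  toFun a := Sum.elim (Sum.elim a 0) 0
  map_add' a b := by
    funext j
    rcases j with (i | i) | j <;> simp
  map_smul' c a := by
    funext j
    rcases j with (i | i) | j <;> simp

theorem embE_ll (a : Fin k → F) (i : Fin k) : embE k F a (Sum.inl (Sum.inl i)) = a i := rfl

theorem embE_lr (a : Fin k → F) (i : Fin k) : embE k F a (Sum.inl (Sum.inr i)) = 0 := rfl

theorem embE_r (a : Fin k → F) (j : Fin 2) : embE k F a (Sum.inr j) = 0 := rfl

theorem embE_injective : Function.Injective (embE k F) := by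
  intro a b hab
  funext i
  have := congrFun hab (Sum.inl (Sum.inl i))
  rwa [embE_ll, embE_ll] at this

theorem QMinus_embE (c d : F) (a : Fin k → F) : QMinus k F c d (embE k F a) = 0 := by
  rw [QMinus_apply]
  simp [embE_lr, embE_r]

theorem mem_range_embE (c d : F)
    (hcd : ∀ z₁ z₂ : F, z₁ ^ 2 + c * z₁ * z₂ + d * z₂ ^ 2 = 0 → z₁ = 0 ∧ z₂ = 0)
    (y : (Fin k ⊕ Fin k) ⊕ Fin 2 → F) (hy : QMinus k F c d y = 0)
    (horth : ∀ a : Fin k → F, polar ⇑(QMinus k F c d) (embE k F a) y = 0) :
    y ∈ LinearMap.range (embE k F) := by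
  classical
  have h1 : ∀ i : Fin k, y (Sum.inl (Sum.inr i)) = 0 := by
    intro i
    have := horth (Pi.single i 1)
    rw [polar_QMinus] at this
    simpa [embE_ll, embE_lr, embE_r, Pi.single_apply] using this
  have h2 : y (Sum.inr 0) = 0 ∧ y (Sum.inr 1) = 0 := by
    apply hcd
    rw [QMinus_apply] at hy
    simpa [h1] using hy
  refine ⟨fun i => y (Sum.inl (Sum.inl i)), ?_⟩
  funext j
  rcases j with (i | i) | j
  · rfl
  · rw [embE_lr, h1]
  · rw [embE_r]
    fin_cases j
    · exact h2.1.symm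
    · exact h2.2.symm

/-- A totally singular subspace of the minus-type form has dimension at most `k`. -/
theorem finrank_le_of_ts_QMinus [Finite F] (c d : F)
    (hcd : ∀ z₁ z₂ : F, z₁ ^ 2 + c * z₁ * z₂ + d * z₂ ^ 2 = 0 → z₁ = 0 ∧ z₂ = 0)
    (hQ : (polarBilin (QMinus k F c d)).Nondegenerate)
    (T : Submodule F ((Fin k ⊕ Fin k) ⊕ Fin 2 → F)) (hT : ∀ x ∈ T, QMinus k F c d x = 0) :
    finrank F T ≤ k := by
  classical
  by_contra hcon
  push Not at hcon
  set Q := QMinus k F c d with hQdef
  set E := LinearMap.range (embE k F) with hE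
  have hEr : finrank F E = k := by
    rw [hE, LinearMap.finrank_range_of_inj embE_injective, Module.finrank_fintype_fun_eq_card,
      Fintype.card_fin]
  have hE0 : ∀ x ∈ E, Q x = 0 := by
    rintro x ⟨a, rfl⟩
    exact QMinus_embE c d a
  obtain ⟨φ, hφ⟩ := (finrank_le_iff_exists_linearMap (R := F) (M := E) (M' := T)).mp
    (by rw [hEr]; omega)
  have hinj : Function.Injective (T.subtype ∘ₗ φ) := by
    intro x y hxy
    exact hφ (Subtype.ext hxy)
  set T₁ := LinearMap.range (T.subtype ∘ₗ φ) with hT₁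
  have hT₁T : T₁ ≤ T := by
    rintro x ⟨y, rfl⟩
    exact (φ y).2
  let e : E ≃ₗ[F] T₁ := LinearEquiv.ofInjective (T.subtype ∘ₗ φ) hinj
  obtain ⟨g, hge, hgE⟩ := exists_isometry_extending Q hQ E T₁ e
    (fun u => by rw [hT _ (hT₁T (e u).2), hE0 _ u.2])
  have hTle : T ≤ T₁ := by
    intro x hx
    rw [← hgE]
    set y := (((g⁻¹ : ↥(Cfsg.isometryGroup F ⇑Q)) :
      Matrix.GeneralLinearGroup ((Fin k ⊕ Fin k) ⊕ Fin 2) F) :
        Matrix ((Fin k ⊕ Fin k) ⊕ Fin 2) ((Fin k ⊕ Fin k) ⊕ Fin 2) F).mulVec x with hy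
    have hgy : ((g : Matrix.GeneralLinearGroup ((Fin k ⊕ Fin k) ⊕ Fin 2) F) :
        Matrix ((Fin k ⊕ Fin k) ⊕ Fin 2) ((Fin k ⊕ Fin k) ⊕ Fin 2) F).mulVec y = x :=
      coe_inv_mulVec Q g x
    refine ⟨y, ?_, hgy⟩
    apply mem_range_embE c d hcd
    · rw [← isometry_apply Q g y, hgy]
      exact hT x hx
    · intro a
      rw [← isometry_polar Q g, hgy]
      have hmem : ((g : Matrix.GeneralLinearGroup ((Fin k ⊕ Fin k) ⊕ Fin 2) F) :
          Matrix ((Fin k ⊕ Fin k) ⊕ Fin 2) ((Fin k ⊕ Fin k) ⊕ Fin 2) F).mulVec (embE k F a) ∈ T := by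
        have := hge ⟨embE k F a, ⟨a, rfl⟩⟩
        rw [this]
        exact hT₁T (e _).2
      exact polar_eq_zero_of_ts Q T hT hmem hx
  have h1 := Submodule.finrank_mono hTle
  have h2 : finrank F T₁ = finrank F E := by
    rw [hT₁, LinearMap.finrank_range_of_inj hinj]
  omega

end Minus

end Cfsg.Agent.Lib.Helper52
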