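import Mathlib
import Cfsg.Agent.Lib.Helper52.OutDefs
import Cfsg.Agent.Lib.Helper43.OUU3
import Cfsg.Agent.Lib.Helper92.OUAL5
import Cfsg.Agent.Lib.Helper5.OUM2
import Cfsg.Agent.Lib.Helper54.OUO2
import Cfsg.Agent.Lib.Helper75.OUM3
import Cfsg.Agent.Lib.Helper18.OUM1
import Cfsg.Agent.Lib.Helper36.OUU2
import Cfsg.Agent.Lib.Helper67.OUAL4
import Cfsg.Agent.Lib.Helper8.OUAL3
import Cfsg.Agent.Lib.Helper19.OUAL2
import Cfsg.Agent.Lib.Helper57.OUAL1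
import Cfsg.Agent.Lib.Helper58.OUU1
import Cfsg.Agent.Lib.Helper52.OAMain
import Cfsg.Agent.Lib.Helper54.OrthDih
import Cfsg.Agent.Lib.Helper27.PslOutInst
import Cfsg.Agent.Lib.Helper51.OAF
import Cfsg.Agent.S2727
import Cfsg.Agent.S2728
import Cfsg.Prelude.Def_LieTypeDatum

/-!
# Outer automorphism groups of the orthogonal groups `Ω_{2m+1}(q)` and `PΩ⁻_{2m+2}(q)`

Wrappers around the pieces proved by other seats (exact statements), the homomorphism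
`ρ : Aut(PΩ) →* RingAut F` with kernel `pgoAut`, and the final statements.
-/

set_option autoImplicit false

namespace Cfsg.Agent.Lib.Helper52.OUMain

open Module QuadraticMap
open Cfsg.Agent.Lib.Helper51 Cfsg.Agent.Lib.Helper52 Cfsg.Agent.Lib.Helper52.OA
open Cfsg.Agent.Lib.Helper52.OU

variable {ι : Type} [Fintype ι] [DecidableEq ι] {F : Type*} [Field F]

local notation "mt(" g ")" => ((g : Matrix.GeneralLinearGroup ι F) : Matrix ι ι F)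

/-! ## PIECE U1 : calculus of induced automorphisms -/

theorem semi_conj_mem (Q : (ι → F) → F) (g : GL ι F) (σ : F ≃+* F)
    (h : Cfsg.IsSemisimilarityPair Q g σ) (s : ↥(Cfsg.Omega F Q)) :
    ∃ s' : ↥(Cfsg.Omega F Q), mt((s' : ↥(Cfsg.isometryGroup F Q)))
      = mt(g) * (mt((s : ↥(Cfsg.isometryGroup F Q)))).map σ * mt(g⁻¹) :=
  Cfsg.Agent.Lib.Helper58.OUU1.semi_conj_mem Q g σ h s

theorem ind_one (Q : (ι → F) → F) : Ind Q 1 1 (RingEquiv.refl F) :=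
  Cfsg.Agent.Lib.Helper58.OUU1.ind_one Q

theorem ind_mul (Q : (ι → F) → F) {β β' : MulAut (Cfsg.POmega F Q)} {g g' : GL ι F}
    {σ σ' : F ≃+* F} (h : Ind Q β g σ) (h' : Ind Q β' g' σ') :
    Ind Q (β * β') (g * Matrix.GeneralLinearGroup.map (σ : F →+* F) g') (σ'.trans σ) :=
  Cfsg.Agent.Lib.Helper58.OUU1.ind_mul Q h h'

theorem ind_inv (Q : (ι → F) → F) {β : MulAut (Cfsg.POmega F Q)} {g : GL ι F}
    {σ : F ≃+* F} (h : Ind Q β g σ) :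
    Ind Q β⁻¹ (Matrix.GeneralLinearGroup.map (σ.symm : F →+* F) g⁻¹) σ.symm :=
  Cfsg.Agent.Lib.Helper58.OUU1.ind_inv Q h

theorem ind_pow (Q : (ι → F) → F) {β : MulAut (Cfsg.POmega F Q)} {g : GL ι F}
    {σ : F ≃+* F} (h : Ind Q β g σ) (k : ℕ) :
    Ind Q (β ^ k) (tpow g σ k) ((σ : RingAut F) ^ k) :=
  Cfsg.Agent.Lib.Helper58.OUU1.ind_pow Q h k

/-! ## PIECE U2 : every semisimilarity pair induces an automorphism -/

theorem ind_of_pair (Q : (ι → F) → F) (g : GL ι F) (σ : F ≃+* F)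
    (h : Cfsg.IsSemisimilarityPair Q g σ) : ∃ β : MulAut (Cfsg.POmega F Q), Ind Q β g σ :=
  Cfsg.Agent.Lib.Helper36.OUU2.ind_of_pair Q g σ h

/-! ## PIECE U3 : a semisimilarity pair inducing the identity is a scalar -/

theorem ind_one_scalar [Fintype F] (Q : QuadraticForm F (ι → F))
    (hQ : (polarBilin Q).Nondegenerate) (hn : 7 ≤ Fintype.card ι)
    (hconj : ∀ (g : GL ι F) (σ : F ≃+* F), Cfsg.IsSemisimilarityPair ⇑Q g σ →
      ∀ s : ↥(Cfsg.Omega F ⇑Q), ∃ s' : ↥(Cfsg.Omega F ⇑Q),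
        mt((s' : ↥(Cfsg.isometryGroup F ⇑Q)))
          = mt(g) * (mt((s : ↥(Cfsg.isometryGroup F ⇑Q)))).map σ * mt(g⁻¹))
    (h : GL ι F) (τ : F ≃+* F) (hh : Ind ⇑Q 1 h τ) :
    τ = RingEquiv.refl F ∧ ∃ c : Fˣ, mt(h) = (c : F) • (1 : Matrix ι ι F) :=
  Cfsg.Agent.Lib.Helper43.OUU3.ind_one_scalar Q hQ hn hconj h τ hh

/-! ## PIECES AL : abstract group theory -/

theorem out_two_cyclic {A R : Type*} [Group A] [Group R] (N : Subgroup A) [N.Normal]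
    (ρ : A →* R) (K : Subgroup A) (hK : ρ.ker = K) (f : ℕ) (hf : 1 ≤ f)
    (hR : Nat.card R = f) (hN : N ≤ K) (hidx : N.relIndex K = 2)
    (φ : A) (hφ : ∀ r : R, r ∈ Subgroup.zpowers (ρ φ)) (hφf : φ ^ f ∈ N) :
    Nonempty (A ⧸ N ≃* Multiplicative (ZMod 2 × ZMod f)) :=
  Cfsg.Agent.Lib.Helper57.OUAL1.out_two_cyclic N ρ K hK f hf hR hN hidx φ hφ hφf

theorem out_cyclic {A R : Type*} [Group A] [Group R] (N : Subgroup A) [N.Normal]
    (ρ : A →* R) (K : Subgroup A) (hK : ρ.ker = K) (f : ℕ) (hf : 1 ≤ f)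
    (hR : Nat.card R = f) (hN : N ≤ K) (hidx : N.relIndex K = 2)
    (φ : A) (hφ : ∀ r : R, r ∈ Subgroup.zpowers (ρ φ)) (hφf : φ ^ f ∉ N) :
    IsCyclic (A ⧸ N) ∧ Nat.card (A ⧸ N) = 2 * f :=
  Cfsg.Agent.Lib.Helper19.OUAL2.out_cyclic N ρ K hK f hf hR hN hidx φ hφ hφf

theorem out_klein_cyclic {A R : Type*} [Group A] [Group R] (N : Subgroup A) [N.Normal]
    (ρ : A →* R) (K : Subgroup A) (hK : ρ.ker = K) (f : ℕ) (hf : 1 ≤ f)
    (hR : Nat.card R = f) (hN : N ≤ K) (hidx : N.relIndex K = 4)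
    (hexp : ∀ k ∈ K, k * k ∈ N)
    (hcen : ∀ (β : A), ∀ k ∈ K, β * k * β⁻¹ * k⁻¹ ∈ N)
    (φ : A) (hφ : ∀ r : R, r ∈ Subgroup.zpowers (ρ φ)) (hφf : φ ^ f ∉ N) :
    Nonempty (A ⧸ N ≃* Multiplicative (ZMod 2 × ZMod (2 * f))) :=
  Cfsg.Agent.Lib.Helper8.OUAL3.out_klein_cyclic N ρ K hK f hf hR hN hidx hexp hcen φ hφ hφf

theorem out_dihedral_cyclic {A R : Type*} [Group A] [Finite A] [Group R] (N : Subgroup A)
    [N.Normal] (ρ : A →* R) (K : Subgroup A) (hK : ρ.ker = K) (f : ℕ) (hfodd : Odd f)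
    (hR : Nat.card R = f) (hcyc : IsCyclic R) (hsurj : Function.Surjective ρ) (hN : N ≤ K)
    (ψ : ↥K →* DihedralGroup 4) (hψ : Function.Surjective ψ) (hker : ψ.ker = N.subgroupOf K) :
    Nonempty (A ⧸ N ≃* DihedralGroup 4 × Multiplicative (ZMod f)) :=
  Cfsg.Agent.Lib.Helper67.OUPieces.out_dihedral_cyclic N ρ K hK f hfodd hR hcyc hsurj hN ψ hψ hker

theorem card_inn_POmega [Fintype F] (Q : QuadraticForm F (ι → F))
    (hQ : (polarBilin Q).Nondegenerate) (hn : 7 ≤ Fintype.card ι) :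
    Nat.card (Cfsg.Inn (Cfsg.POmega F ⇑Q)) = Nat.card (Cfsg.POmega F ⇑Q) :=
  Cfsg.Agent.Lib.Helper92.OU.card_inn_POmega Q hQ hn

/-! ## PIECE O2 : the odd-dimensional form -/

theorem odd_relIndex [Fintype F] (hodd : Odd (Fintype.card F)) {m : ℕ} (hm : 3 ≤ m)
    (hscal : ∀ (h : GL (Unit ⊕ (Fin m ⊕ Fin m)) F),
      Ind (Cfsg.quadFormOdd m F) 1 h (RingEquiv.refl F) →
      ∃ c : Fˣ, (h : Matrix (Unit ⊕ (Fin m ⊕ Fin m)) (Unit ⊕ (Fin m ⊕ Fin m)) F)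
        = (c : F) • (1 : Matrix (Unit ⊕ (Fin m ⊕ Fin m)) (Unit ⊕ (Fin m ⊕ Fin m)) F)) :
    (Cfsg.Inn (Cfsg.POmega F (Cfsg.quadFormOdd m F))).relIndex
      (Cfsg.pgoAut F (Cfsg.quadFormOdd m F)) = 2 :=
  Cfsg.Agent.Lib.Helper54.OUO2.odd_relIndex hodd hm hscal

/-! ## PIECES M : the minus-type form -/

theorem minus_frob [Fintype F] {p f : ℕ} [Fact p.Prime] (hf : 1 ≤ f)
    (hF : Fintype.card F = p ^ f) (m : ℕ) (a b : F)
    (hab : ∀ z₁ z₂ : F, z₁ ^ 2 + a * z₁ * z₂ + b * z₂ ^ 2 = 0 → z₁ = 0 ∧ z₂ = 0) :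
    ∃ (g : GL ((Fin m ⊕ Fin m) ⊕ Fin 2) F) (σ : F ≃+* F),
      (∀ τ : RingAut F, τ ∈ Subgroup.zpowers (σ : RingAut F)) ∧
      Cfsg.IsSemisimilarityPair (Cfsg.quadFormMinus m F a b) g σ ∧
      ((tpow g σ f : GL ((Fin m ⊕ Fin m) ⊕ Fin 2) F) :
          Matrix ((Fin m ⊕ Fin m) ⊕ Fin 2) ((Fin m ⊕ Fin m) ⊕ Fin 2) F)
        = Matrix.fromBlocks 1 0 0 !![1, a; 0, -1] :=
  Cfsg.Agent.Lib.Helper18.OUM1.minus_frob hf hF m a b hab

theorem minus_conj_not_omega [Fintype F] {m : ℕ} (hm : 3 ≤ m) (a b : F)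
    (hab : ∀ z₁ z₂ : F, z₁ ^ 2 + a * z₁ * z₂ + b * z₂ ^ 2 = 0 → z₁ = 0 ∧ z₂ = 0)
    (s : ↥(Cfsg.Omega F (Cfsg.quadFormMinus m F a b))) (c : Fˣ) :
    (((s : ↥(Cfsg.isometryGroup F (Cfsg.quadFormMinus m F a b))) :
        GL ((Fin m ⊕ Fin m) ⊕ Fin 2) F) :
          Matrix ((Fin m ⊕ Fin m) ⊕ Fin 2) ((Fin m ⊕ Fin m) ⊕ Fin 2) F)
      ≠ (c : F) • (Matrix.fromBlocks 1 0 0 !![1, a; 0, -1] :
          Matrix ((Fin m ⊕ Fin m) ⊕ Fin 2) ((Fin m ⊕ Fin m) ⊕ Fin 2) F) :=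
  Cfsg.Agent.Lib.Helper5.OUM2.minus_conj_not_omega hm a b hab s c

theorem minus_relIndex_char_two [Fintype F] (h2 : (2 : F) = 0) {m : ℕ} (hm : 3 ≤ m) (a b : F)
    (hab : ∀ z₁ z₂ : F, z₁ ^ 2 + a * z₁ * z₂ + b * z₂ ^ 2 = 0 → z₁ = 0 ∧ z₂ = 0)
    (hscal : ∀ (h : GL ((Fin m ⊕ Fin m) ⊕ Fin 2) F),
      Ind (Cfsg.quadFormMinus m F a b) 1 h (RingEquiv.refl F) →
      ∃ c : Fˣ, (h : Matrix ((Fin m ⊕ Fin m) ⊕ Fin 2) ((Fin m ⊕ Fin m) ⊕ Fin 2) F)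
        = (c : F) • (1 : Matrix ((Fin m ⊕ Fin m) ⊕ Fin 2) ((Fin m ⊕ Fin m) ⊕ Fin 2) F)) :
    (Cfsg.Inn (Cfsg.POmega F (Cfsg.quadFormMinus m F a b))).relIndex
      (Cfsg.pgoAut F (Cfsg.quadFormMinus m F a b)) = 2 :=
  Cfsg.Agent.Lib.Helper75.OUM3.minus_relIndex_char_two h2 hm a b hab hscal


/-! ## CORE (helper52) -/

section Core

theorem ind_eq (Q : (ι → F) → F) {β β' : MulAut (Cfsg.POmega F Q)} {g : GL ι F} {σ : F ≃+* F}
    (h : Ind Q β g σ) (h' : Ind Q β' g σ) : β = β' := by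
  ext x
  induction x using QuotientGroup.induction_on with
  | H s =>
    obtain ⟨s', hs'⟩ := semi_conj_mem Q g σ h.1 s
    rw [h.2 s s' hs', h'.2 s s' hs']

theorem exists_ind (Q : (ι → F) → F) (hγ : Cfsg.gammaPOmega F Q = ⊤)
    (β : MulAut (Cfsg.POmega F Q)) : ∃ (g : GL ι F) (σ : F ≃+* F), Ind Q β g σ := by
  have hmem : β ∈ Cfsg.gammaPOmega F Q := by rw [hγ]; trivial
  unfold Cfsg.gammaPOmega Cfsg.autSubgroupOf at hmem
  induction hmem using Subgroup.closure_induction with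
  | mem x hx =>
    obtain ⟨g, σ, h1, h2⟩ := hx
    exact ⟨g, σ, h1, h2⟩
  | one => exact ⟨1, RingEquiv.refl F, ind_one Q⟩
  | mul x y _ _ hx hy =>
    obtain ⟨g, σ, h⟩ := hx
    obtain ⟨g', σ', h'⟩ := hy
    exact ⟨_, _, ind_mul Q h h'⟩
  | inv x _ hx =>
    obtain ⟨g, σ, h⟩ := hx
    exact ⟨_, _, ind_inv Q h⟩

theorem ind_unique [Fintype F] (Q : QuadraticForm F (ι → F))
    (hQ : (polarBilin Q).Nondegenerate) (hn : 7 ≤ Fintype.card ι)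
    {β : MulAut (Cfsg.POmega F ⇑Q)} {g g' : GL ι F} {σ σ' : F ≃+* F}
    (h : Ind ⇑Q β g σ) (h' : Ind ⇑Q β g' σ') :
    σ = σ' ∧ ∃ c : Fˣ, mt(g') = (c : F) • mt(g) := by
  have h1 := ind_mul ⇑Q (ind_inv ⇑Q h) h'
  rw [inv_mul_cancel] at h1
  obtain ⟨hτ, c, hc⟩ := ind_one_scalar Q hQ hn (semi_conj_mem ⇑Q) _ _ h1
  have hσ : σ = σ' := by
    apply RingEquiv.ext
    intro x
    have h2 := congrArg (fun τ : F ≃+* F => σ (τ x)) hτ
    simp only [RingEquiv.trans_apply, RingEquiv.apply_symm_apply, RingEquiv.refl_apply] at h2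
    exact h2.symm
  refine ⟨hσ, Units.map (σ : F →* F) c, ?_⟩
  have e1 : mt(g⁻¹ * g') = (σ (c : F)) • (1 : Matrix ι ι F) := by
    have e2 : (mt(g⁻¹ * g')).map (σ.symm : F →+* F) = (c : F) • (1 : Matrix ι ι F) := by
      rw [← hc, ← Matrix.GeneralLinearGroup.map_mul]
      ext i j
      rw [Matrix.GeneralLinearGroup.map_apply]
      rfl
    have e3 := congrArg (fun M : Matrix ι ι F => M.map (σ : F →+* F)) e2
    simp only [Matrix.map_map] at e3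
    have e4 : ((σ : F →+* F) ∘ (σ.symm : F →+* F) : F → F) = id := by
      funext x
      simp
    rw [e4, Matrix.map_id] at e3
    rw [e3]
    ext i j
    by_cases hij : i = j <;> simp [Matrix.map_apply, Matrix.smul_apply, hij]
  have e5 : mt(g') = mt(g) * mt(g⁻¹ * g') := by
    rw [← Units.val_mul, mul_inv_cancel_left]
  rw [e5, e1]
  simp

theorem exists_rho [Fintype F] (Q : QuadraticForm F (ι → F))
    (hQ : (polarBilin Q).Nondegenerate) (hn : 7 ≤ Fintype.card ι)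
    (hγ : Cfsg.gammaPOmega F ⇑Q = ⊤) :
    ∃ ρ : MulAut (Cfsg.POmega F ⇑Q) →* RingAut F,
      ∀ (β : MulAut (Cfsg.POmega F ⇑Q)) (g : GL ι F) (σ : F ≃+* F), Ind ⇑Q β g σ → ρ β = σ := by
  classical
  choose G S hGS using exists_ind ⇑Q hγ
  have key : ∀ (β : MulAut (Cfsg.POmega F ⇑Q)) (g : GL ι F) (σ : F ≃+* F),
      Ind ⇑Q β g σ → S β = σ := fun β g σ h => (ind_unique Q hQ hn (hGS β) h).1
  refine ⟨MonoidHom.mk' S ?_, key⟩
  intro β β'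
  exact key _ _ _ (ind_mul ⇑Q (hGS β) (hGS β'))

theorem rho_ker [Fintype F] (Q : QuadraticForm F (ι → F))
    (hγ : Cfsg.gammaPOmega F ⇑Q = ⊤) (ρ : MulAut (Cfsg.POmega F ⇑Q) →* RingAut F)
    (hρ : ∀ (β : MulAut (Cfsg.POmega F ⇑Q)) (g : GL ι F) (σ : F ≃+* F),
      Ind ⇑Q β g σ → ρ β = σ) :
    ρ.ker = Cfsg.pgoAut F ⇑Q := by
  ext β
  rw [MonoidHom.mem_ker]
  constructor
  · intro h1
    obtain ⟨g, σ, h⟩ := exists_ind ⇑Q hγ β
    have hσ : σ = RingEquiv.refl F := by rw [← hρ β g σ h, h1]; rfl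
    subst hσ
    apply Subgroup.subset_closure
    refine ⟨g, ?_, h.2⟩
    obtain ⟨c, hc⟩ := h.1
    exact ⟨c, fun v => by simpa using hc v⟩
  · intro h1
    rw [Cfsg.Agent.Lib.Helper54.pgoAut_eq] at h1
    obtain ⟨g, rfl⟩ := h1
    have h2 : Ind ⇑Q (Cfsg.Agent.Lib.Helper54.simAut ⇑Q g) (g : GL ι F) (RingEquiv.refl F) := by
      refine ⟨?_, (Cfsg.Agent.Lib.Helper54.induced_iff ⇑Q g _).mpr rfl⟩
      obtain ⟨c, hc⟩ := g.2
      exact ⟨c, fun v => by simpa using hc v⟩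
    rw [hρ _ _ _ h2]
    rfl

theorem inn_le_pgo [Fintype F] (Q : QuadraticForm F (ι → F)) :
    Cfsg.Inn (Cfsg.POmega F ⇑Q) ≤ Cfsg.pgoAut F ⇑Q :=
  (Cfsg.Agent.Lib.Helper54.inn_le_pso Q).trans (Cfsg.Agent.Lib.Helper54.pso_le_pgo Q)

theorem tpow_one (σ : F ≃+* F) (k : ℕ) : tpow (1 : GL ι F) σ k = 1 := by
  induction k with
  | zero => rfl
  | succ k ih => rw [tpow_succ, ih, map_one, mul_one]

/-- An inner automorphism is induced by the corresponding element of `Ω`. -/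
theorem ind_conj (Q : (ι → F) → F) (s : ↥(Cfsg.Omega F Q)) :
    Ind Q (MulAut.conj (QuotientGroup.mk s : Cfsg.POmega F Q))
      ((s : ↥(Cfsg.isometryGroup F Q)) : GL ι F) (RingEquiv.refl F) := by
  refine ⟨⟨1, fun v => ?_⟩, ?_⟩
  · have h1 := (Cfsg.Agent.Lib.Helper54.mem_isometryGroup_iff' Q _).mp
      (s : ↥(Cfsg.isometryGroup F Q)).2 v
    simpa using h1
  · intro t t' ht
    have e : t' = s * t * s⁻¹ := by
      apply Subtype.ext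
      apply Subtype.ext
      apply Units.ext
      rw [ht]
      simp
    rw [e]
    rfl

/-- The data common to all cases: `ρ`, its kernel, a generator. -/
theorem core_data [Fintype F] {p f : ℕ} [Fact p.Prime] (hF : Fintype.card F = p ^ f)
    (Q : QuadraticForm F (ι → F)) (hQ : (polarBilin Q).Nondegenerate)
    (hn : 7 ≤ Fintype.card ι) (hγ : Cfsg.gammaPOmega F ⇑Q = ⊤) :
    ∃ ρ : MulAut (Cfsg.POmega F ⇑Q) →* RingAut F,
      (∀ (β : MulAut (Cfsg.POmega F ⇑Q)) (g : GL ι F) (σ : F ≃+* F), Ind ⇑Q β g σ → ρ β = σ) ∧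
      ρ.ker = Cfsg.pgoAut F ⇑Q ∧ Nat.card (RingAut F) = f ∧ IsCyclic (RingAut F) := by
  obtain ⟨ρ, hρ⟩ := exists_rho Q hQ hn hγ
  obtain ⟨hcyc, hcard⟩ := Cfsg.Agent.Lib.Helper27.PslOutInst.ringAut_cyclic hF
  exact ⟨ρ, hρ, rho_ker Q hγ ρ hρ, hcard, hcyc⟩

end Core


/-! ## ASSEMBLY (helper52) -/

section Assembly

theorem card_of_rho {A R : Type*} [Group A] [Group R] [Finite A] (N : Subgroup A) (ρ : A →* R)
    (K : Subgroup A) (hK : ρ.ker = K) (hsurj : Function.Surjective ρ) (hN : N ≤ K) :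
    Nat.card A = N.relIndex K * Nat.card R * Nat.card N := by
  have h1 : Nat.card K * K.index = Nat.card A := Subgroup.card_mul_index K
  have h2 : K.index = Nat.card R := by
    rw [← hK, Subgroup.index_ker, MonoidHom.range_eq_top.mpr hsurj, Subgroup.card_top]
  have h3 : Nat.card (N.subgroupOf K) * (N.subgroupOf K).index = Nat.card K :=
    Subgroup.card_mul_index (N.subgroupOf K)
  have h4 : Nat.card (N.subgroupOf K) = Nat.card N :=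
    Nat.card_congr (Subgroup.subgroupOfEquivOfLe hN).toEquiv
  have h5 : (N.subgroupOf K).index = N.relIndex K := rfl
  rw [← h1, ← h3, h4, h5, h2]
  ring

theorem surj_of_gen {A R : Type*} [Group A] [Group R] (ρ : A →* R) (φ : A)
    (hφ : ∀ r : R, r ∈ Subgroup.zpowers (ρ φ)) : Function.Surjective ρ := by
  intro r
  obtain ⟨k, hk⟩ := Subgroup.mem_zpowers_iff.mp (hφ r)
  exact ⟨φ ^ k, by rw [map_zpow, hk]⟩

/-- The odd-dimensional case, for any form `q` with the data. -/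
theorem out_odd_of [Fintype F] {p f : ℕ} [Fact p.Prime] (hf : 1 ≤ f)
    (hF : Fintype.card F = p ^ f) (q : (ι → F) → F) (Q : QuadraticForm F (ι → F)) (hq : ⇑Q = q)
    (hQ : (polarBilin Q).Nondegenerate) (hn : 7 ≤ Fintype.card ι)
    (hγ : Cfsg.gammaPOmega F q = ⊤)
    (hfrob : ∀ σ : F ≃+* F, Cfsg.IsSemisimilarityPair q 1 σ)
    (hidx : (Cfsg.Inn (Cfsg.POmega F q)).relIndex (Cfsg.pgoAut F q) = 2) :
    Nonempty (Cfsg.Out (Cfsg.POmega F q) ≃* Multiplicative (ZMod 2 × ZMod f)) ∧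
      Nat.card (MulAut (Cfsg.POmega F q)) = 2 * f * Nat.card (Cfsg.POmega F q) := by
  subst hq
  obtain ⟨ρ, hρ, hker, hcard, hcyc⟩ := core_data hF Q hQ hn hγ
  obtain ⟨σ0, hσ0⟩ := hcyc.exists_generator
  obtain ⟨φ, hφ⟩ := ind_of_pair ⇑Q 1 σ0 (hfrob σ0)
  have hρφ : ρ φ = σ0 := hρ φ 1 σ0 hφ
  have hgen : ∀ r : RingAut F, r ∈ Subgroup.zpowers (ρ φ) := by rw [hρφ]; exact hσ0
  have hφf : φ ^ f ∈ Cfsg.Inn (Cfsg.POmega F ⇑Q) := by
    have h1 := ind_pow ⇑Q hφ f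
    rw [tpow_one] at h1
    have h2 : (σ0 : RingAut F) ^ f = 1 := by rw [← hcard]; exact pow_card_eq_one'
    rw [h2] at h1
    have h3 : φ ^ f = 1 := ind_eq ⇑Q h1 (ind_one ⇑Q)
    rw [h3]
    exact Subgroup.one_mem _
  refine ⟨out_two_cyclic (Cfsg.Inn (Cfsg.POmega F ⇑Q)) ρ (Cfsg.pgoAut F ⇑Q) hker f hf hcard
    (inn_le_pgo Q) hidx φ hgen hφf, ?_⟩
  rw [card_of_rho (Cfsg.Inn (Cfsg.POmega F ⇑Q)) ρ (Cfsg.pgoAut F ⇑Q) hker (surj_of_gen ρ φ hgen)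
    (inn_le_pgo Q), hidx, hcard, card_inn_POmega Q hQ hn]

/-- The common data in the minus-type case, for any form `q` with the data. -/
theorem frob_setup [Fintype F] {p f : ℕ} [Fact p.Prime]
    (hF : Fintype.card F = p ^ f) (q : (ι → F) → F) (Q : QuadraticForm F (ι → F)) (hq : ⇑Q = q)
    (hQ : (polarBilin Q).Nondegenerate) (hn : 7 ≤ Fintype.card ι)
    (hγ : Cfsg.gammaPOmega F q = ⊤)
    (g : GL ι F) (σ : F ≃+* F) (hσ : ∀ τ : RingAut F, τ ∈ Subgroup.zpowers (σ : RingAut F))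
    (hpair : Cfsg.IsSemisimilarityPair q g σ) (J : Matrix ι ι F) (hJ : mt(tpow g σ f) = J)
    (hnot : ∀ (s : ↥(Cfsg.Omega F q)) (c : Fˣ),
      mt((s : ↥(Cfsg.isometryGroup F q))) ≠ (c : F) • J) :
    ∃ (ρ : MulAut (Cfsg.POmega F q) →* RingAut F) (φ : MulAut (Cfsg.POmega F q)),
      ρ.ker = Cfsg.pgoAut F q ∧ Nat.card (RingAut F) = f ∧ IsCyclic (RingAut F) ∧
      (∀ r : RingAut F, r ∈ Subgroup.zpowers (ρ φ)) ∧ φ ^ f ∉ Cfsg.Inn (Cfsg.POmega F q) ∧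
      Cfsg.Inn (Cfsg.POmega F q) ≤ Cfsg.pgoAut F q ∧
      Nat.card (Cfsg.Inn (Cfsg.POmega F q)) = Nat.card (Cfsg.POmega F q) ∧
      (∀ β : MulAut (Cfsg.POmega F q), ∃ (g : GL ι F) (σ : F ≃+* F), Ind q β g σ) ∧
      (∀ (h : GL ι F), Ind q 1 h (RingEquiv.refl F) →
        ∃ c : Fˣ, mt(h) = (c : F) • (1 : Matrix ι ι F)) := by
  subst hq
  obtain ⟨ρ, hρ, hker, hcard, hcyc⟩ := core_data hF Q hQ hn hγ
  obtain ⟨φ, hφ⟩ := ind_of_pair ⇑Q g σ hpair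
  have hρφ : ρ φ = σ := hρ φ g σ hφ
  refine ⟨ρ, φ, hker, hcard, hcyc, by rw [hρφ]; exact hσ, ?_, inn_le_pgo Q,
    card_inn_POmega Q hQ hn, exists_ind ⇑Q hγ,
    fun h hh => (ind_one_scalar Q hQ hn (semi_conj_mem ⇑Q) h _ hh).2⟩
  rintro ⟨x, hx⟩
  induction x using QuotientGroup.induction_on with
  | H s =>
    have h1 := ind_pow ⇑Q hφ f
    have h2 := ind_conj ⇑Q s
    rw [hx] at h2
    obtain ⟨-, c, hc⟩ := ind_unique Q hQ hn h1 h2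
    rw [hJ] at hc
    exact hnot s c hc

end Assembly


/-! ## FINAL (helper52) -/

section Final

theorem relIndex_of_hom {A T : Type*} [Group A] [Group T] (N K : Subgroup A) (ψ : ↥K →* T)
    (hψ : Function.Surjective ψ) (hk : ψ.ker = N.subgroupOf K) : N.relIndex K = Nat.card T := by
  show (N.subgroupOf K).index = _
  rw [← hk, Subgroup.index_ker, MonoidHom.range_eq_top.mpr hψ, Subgroup.card_top]

theorem parity_aux (m q : ℕ) (hm : 1 ≤ m) (hq : Odd q) :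
    Even (m * (q - 1) / 2) ↔ ¬ (Even (m - 1) ∧ q % 4 = 3) := by
  obtain ⟨t, rfl⟩ := hq
  have e : m * (2 * t + 1 - 1) / 2 = m * t := by
    rw [Nat.add_sub_cancel, Nat.mul_left_comm, Nat.mul_div_cancel_left _ (by norm_num : 0 < 2)]
  rw [e, Nat.even_mul, Nat.even_iff, Nat.even_iff, Nat.even_iff]
  omega

theorem sq_mod_four_ne_three (x : ℕ) : x * x % 4 ≠ 3 := by
  rw [Nat.mul_mod]
  have := Nat.mod_lt x (show 0 < 4 by norm_num)
  interval_cases x % 4 <;> simp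

theorem odd_final {F : Type*} [Field F] [Fintype F] {p f m : ℕ} [Fact p.Prime] (hf : 1 ≤ f)
    (hF : Fintype.card F = p ^ f) (hp : p ≠ 2) (hm : 3 ≤ m) :
    Nonempty (Cfsg.Out (Cfsg.POmega F (Cfsg.quadFormOdd m F)) ≃*
        Multiplicative (ZMod 2 × ZMod f)) ∧
      Nat.card (MulAut (Cfsg.POmega F (Cfsg.quadFormOdd m F)))
        = 2 * f * Nat.card (Cfsg.POmega F (Cfsg.quadFormOdd m F)) := by
  have hpodd : Odd p := (Fact.out : p.Prime).odd_of_ne_two hp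
  have hodd : Odd (Fintype.card F) := by rw [hF]; exact hpodd.pow
  obtain ⟨Q, hq, hQ, hn, h8⟩ := Cfsg.Agent.Lib.Helper51.OAF.odd_data hodd hm
  have hγ : Cfsg.gammaPOmega F (Cfsg.quadFormOdd m F) = ⊤ := by
    rw [← hq]
    exact gamma_eq_top Q hQ hn h8
  have hscal : ∀ (q : (Unit ⊕ (Fin m ⊕ Fin m) → F) → F) (_ : ⇑Q = q)
      (h : GL (Unit ⊕ (Fin m ⊕ Fin m)) F), Ind q 1 h (RingEquiv.refl F) →
      ∃ c : Fˣ, (h : Matrix (Unit ⊕ (Fin m ⊕ Fin m)) (Unit ⊕ (Fin m ⊕ Fin m)) F)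
        = (c : F) • (1 : Matrix (Unit ⊕ (Fin m ⊕ Fin m)) (Unit ⊕ (Fin m ⊕ Fin m)) F) := by
    intro q hq'
    subst hq'
    intro h hh
    exact (ind_one_scalar Q hQ hn (semi_conj_mem ⇑Q) h _ hh).2
  refine out_odd_of hf hF _ Q hq hQ hn hγ ?_ (odd_relIndex hodd hm (hscal _ hq))
  intro σ
  refine ⟨1, fun v => ?_⟩
  simp [Cfsg.quadFormOdd, map_add, map_sum, map_mul, map_pow]

theorem minus_final_setup {F : Type*} [Field F] [Fintype F] {p f : ℕ} [Fact p.Prime]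
    (hf : 1 ≤ f) (hF : Fintype.card F = p ^ f) {m : ℕ} (hm : 3 ≤ m) (a b : F)
    (hab : ∀ z₁ z₂ : F, z₁ ^ 2 + a * z₁ * z₂ + b * z₂ ^ 2 = 0 → z₁ = 0 ∧ z₂ = 0) :
    ∃ (ρ : MulAut (Cfsg.POmega F (Cfsg.quadFormMinus m F a b)) →* RingAut F)
      (φ : MulAut (Cfsg.POmega F (Cfsg.quadFormMinus m F a b))),
      ρ.ker = Cfsg.pgoAut F (Cfsg.quadFormMinus m F a b) ∧ Nat.card (RingAut F) = f ∧
      IsCyclic (RingAut F) ∧
      (∀ r : RingAut F, r ∈ Subgroup.zpowers (ρ φ)) ∧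
      φ ^ f ∉ Cfsg.Inn (Cfsg.POmega F (Cfsg.quadFormMinus m F a b)) ∧
      Cfsg.Inn (Cfsg.POmega F (Cfsg.quadFormMinus m F a b))
        ≤ Cfsg.pgoAut F (Cfsg.quadFormMinus m F a b) ∧
      Nat.card (Cfsg.Inn (Cfsg.POmega F (Cfsg.quadFormMinus m F a b)))
        = Nat.card (Cfsg.POmega F (Cfsg.quadFormMinus m F a b)) ∧
      (∀ β : MulAut (Cfsg.POmega F (Cfsg.quadFormMinus m F a b)),
        ∃ (g : GL ((Fin m ⊕ Fin m) ⊕ Fin 2) F) (σ : F ≃+* F),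
          Ind (Cfsg.quadFormMinus m F a b) β g σ) ∧
      (∀ (h : GL ((Fin m ⊕ Fin m) ⊕ Fin 2) F),
        Ind (Cfsg.quadFormMinus m F a b) 1 h (RingEquiv.refl F) →
        ∃ c : Fˣ, (h : Matrix ((Fin m ⊕ Fin m) ⊕ Fin 2) ((Fin m ⊕ Fin m) ⊕ Fin 2) F)
          = (c : F) • (1 : Matrix ((Fin m ⊕ Fin m) ⊕ Fin 2) ((Fin m ⊕ Fin m) ⊕ Fin 2) F)) := by
  obtain ⟨Q, hq, hQ, hn, h8⟩ := Cfsg.Agent.Lib.Helper51.OAF.minus_data hm a b hab
  have hγ : Cfsg.gammaPOmega F (Cfsg.quadFormMinus m F a b) = ⊤ := by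
    rw [← hq]
    exact gamma_eq_top Q hQ hn h8
  obtain ⟨g, σ, hσ, hpair, hJ⟩ := minus_frob hf hF m a b hab
  exact frob_setup hF _ Q hq hQ hn hγ g σ hσ hpair _ hJ
    (fun s c => minus_conj_not_omega hm a b hab s c)

theorem r2605 {F : Type*} [Field F] [Fintype F] {f m : ℕ} (hf : 1 ≤ f) (hF : Fintype.card F = 2 ^ f) (hm : 4 ≤ m) (a b : F) (hab : ∀ z₁ z₂ : F, z₁ ^ 2 + a * z₁ * z₂ + b * z₂ ^ 2 = 0 → z₁ = 0 ∧ z₂ = 0) : IsCyclic (Cfsg.Out (Cfsg.POmega F (Cfsg.quadFormMinus (m - 1) F a b))) ∧ Nat.card (Cfsg.Out (Cfsg.POmega F (Cfsg.quadFormMinus (m - 1) F a b))) = 2 * f := by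
  have hm' : 3 ≤ m - 1 := by omega
  obtain ⟨ρ, φ, hker, hcard, hcyc, hgen, hφf, hInn, hcI, hex, hscal⟩ :=
    minus_final_setup (p := 2) hf hF hm' a b hab
  have hchar : CharP F 2 := Cfsg.Agent.Lib.Helper27.PslOutInst.charP_of_card hF
  have h2 : (2 : F) = 0 := by
    have := CharP.cast_eq_zero F 2
    exact_mod_cast this
  exact out_cyclic _ ρ _ hker f hf hcard hInn
    (minus_relIndex_char_two h2 hm' a b hab hscal) φ hgen hφf

theorem r0818 {F : Type*} [Field F] [Fintype F] (p f : ℕ) [Fact p.Prime] (hf : 1 ≤ f) (hF : Fintype.card F = p ^ f) (m : ℕ) (hm : 4 ≤ m) (a b : F) (hab : ∀ z₁ z₂ : F, z₁ ^ 2 + a * z₁ * z₂ + b * z₂ ^ 2 = 0 → z₁ = 0 ∧ z₂ = 0) : Nat.card (MulAut (Cfsg.POmega F (Cfsg.quadFormMinus (m - 1) F a b))) = (if p = 2 then 2 else (if Even (m * (p ^ f - 1) / 2) then 4 else 8)) * f * Nat.card (Cfsg.POmega F (Cfsg.quadFormMinus (m - 1) F a b)) := by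
  have hm' : 3 ≤ m - 1 := by omega
  obtain ⟨ρ, φ, hker, hcard, hcyc, hgen, hφf, hInn, hcI, hex, hscal⟩ :=
    minus_final_setup hf hF hm' a b hab
  rw [card_of_rho _ ρ _ hker (surj_of_gen ρ φ hgen) hInn, hcard, hcI]
  congr 2
  by_cases hp2 : p = 2
  · subst hp2
    rw [if_pos rfl]
    have hchar : CharP F 2 := Cfsg.Agent.Lib.Helper27.PslOutInst.charP_of_card hF
    have h2 : (2 : F) = 0 := by
      have := CharP.cast_eq_zero F 2
      exact_mod_cast this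
    exact minus_relIndex_char_two h2 hm' a b hab hscal
  · rw [if_neg hp2]
    have hpodd : Odd p := (Fact.out : p.Prime).odd_of_ne_two hp2
    have hqodd : Odd (p ^ f) := hpodd.pow
    have hodd : Odd (Fintype.card F) := by rw [hF]; exact hqodd
    obtain ⟨h8, h4⟩ := Cfsg.Agent.S2728.result hodd hm' a b hab
    have hpar := parity_aux m (p ^ f) (by omega) hqodd
    rw [← hF] at hpar
    by_cases hc : Even (m - 1) ∧ Fintype.card F % 4 = 3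
    · obtain ⟨ψ, hψ, hkψ⟩ := h8 hc
      rw [relIndex_of_hom _ _ ψ hψ hkψ, if_neg (fun h => (hpar.mp (by rw [hF]; exact h)) hc)]
      rw [DihedralGroup.nat_card]
    · obtain ⟨ψ, hψ, hkψ⟩ := h4 hc
      rw [relIndex_of_hom _ _ ψ hψ hkψ, if_pos (by rw [← hF]; exact hpar.mpr hc)]
      rw [Nat.card_eq_fintype_card]
      rfl


end Final

end Cfsg.Agent.Lib.Helper52.OUMain
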