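import Mathlib
import Cfsg.Agent.Lib.Helper52.OutDefs
import Cfsg.Agent.Lib.Helper52.OutMain
import Cfsg.Agent.Lib.Helper53.Hilbert90Gen
import Cfsg.Agent.Lib.Helper51.HypPairs
import Cfsg.Agent.S2618
import Cfsg.Agent.Lib.Helper53.LSNorm
import Cfsg.Agent.Lib.Helper53.LSOdd
import Cfsg.Agent.Lib.Helper65.LS2
import Cfsg.Prelude.Def_LieTypeDatum

set_option autoImplicit false

namespace Cfsg.Agent.Lib.Helper52.LSMain

open Module QuadraticMap Matrix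
open Cfsg.Agent.Lib.Helper51 Cfsg.Agent.Lib.Helper52
open Cfsg.Agent.Lib.Helper52.OU Cfsg.Agent.Lib.Helper52.OUMain

variable {ι : Type} [Fintype ι] [DecidableEq ι] {F : Type*} [Field F]

local notation "mt(" g ")" => ((g : Matrix.GeneralLinearGroup ι F) : Matrix ι ι F)

/-! ## Piece LS-1 (helper53) : Hilbert 90 normalisation of a similarity cocycle -/

theorem lang_norm [Fintype F] [Nonempty ι] (Q : QuadraticForm F (ι → F)) (hv : ∃ v, Q v ≠ 0)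
    (σ : F ≃+* F) (hQσ : ∀ v : ι → F, Q (fun i => σ (v i)) = σ (Q v))
    (r : ℕ) (hr0 : 0 < r) (hσ : orderOf (σ : RingAut F) = r) (g : GL ι F)
    (hg : g ∈ Cfsg.Geo.quadSimilarityGroup (F := F) ⇑Q) (c : Fˣ)
    (hN : mt(tpow g σ r) = (c : F) • (1 : Matrix ι ι F)) :
    ∃ (B : GL ι F) (μ ν : Fˣ), mt(g) * (mt(B)).map σ = (μ : F) • mt(B) ∧
      ∀ v : ι → F, (ν : F) * Q (mt(B) *ᵥ (fun i => σ (v i))) = σ ((ν : F) * Q (mt(B) *ᵥ v)) :=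
  Cfsg.Agent.Lib.Helper53.LS.lang_norm Q hv σ hQσ r hr0 hσ g hg c hN

/-! ## Piece LS-2 (helper65) : descent of an odd-dimensional form to the fixed field -/

theorem descent_odd [Fintype F] (h2 : (2 : F) ≠ 0) (m : ℕ) (σ : F ≃+* F)
    (Q1 : QuadraticForm F (Unit ⊕ (Fin m ⊕ Fin m) → F)) (hQ1 : (polarBilin Q1).Nondegenerate)
    (hσ : ∀ v : Unit ⊕ (Fin m ⊕ Fin m) → F, Q1 (fun i => σ (v i)) = σ (Q1 v)) :
    ∃ (R : GL (Unit ⊕ (Fin m ⊕ Fin m)) F) (c : Fˣ),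
      (R : Matrix (Unit ⊕ (Fin m ⊕ Fin m)) (Unit ⊕ (Fin m ⊕ Fin m)) F).map σ
        = (R : Matrix (Unit ⊕ (Fin m ⊕ Fin m)) (Unit ⊕ (Fin m ⊕ Fin m)) F) ∧
      ∀ v : Unit ⊕ (Fin m ⊕ Fin m) → F,
        Q1 ((R : Matrix (Unit ⊕ (Fin m ⊕ Fin m)) (Unit ⊕ (Fin m ⊕ Fin m)) F) *ᵥ v)
          = (c : F) * Cfsg.quadFormOdd m F v :=
  Cfsg.Agent.Lib.Helper65.LS2.descent_odd h2 m σ Q1 hQ1 hσ

/-! ## Piece LS-3 (helper53) : Lang's theorem for the similarity group of the odd-dimensional form -/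

theorem lang_odd [Fintype F] (hodd : Odd (Fintype.card F)) (m : ℕ)
    (hnorm : ∀ (σ : F ≃+* F) (r : ℕ), 0 < r → orderOf (σ : RingAut F) = r →
      ∀ (g : GL (Unit ⊕ (Fin m ⊕ Fin m)) F),
      g ∈ Cfsg.Geo.quadSimilarityGroup (F := F) (Cfsg.quadFormOdd m F) → ∀ c : Fˣ,
      ((tpow g σ r : GL (Unit ⊕ (Fin m ⊕ Fin m)) F) :
          Matrix (Unit ⊕ (Fin m ⊕ Fin m)) (Unit ⊕ (Fin m ⊕ Fin m)) F)
        = (c : F) • (1 : Matrix (Unit ⊕ (Fin m ⊕ Fin m)) (Unit ⊕ (Fin m ⊕ Fin m)) F) →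
      ∃ (B : GL (Unit ⊕ (Fin m ⊕ Fin m)) F) (μ ν : Fˣ),
        (g : Matrix (Unit ⊕ (Fin m ⊕ Fin m)) (Unit ⊕ (Fin m ⊕ Fin m)) F)
            * (B : Matrix (Unit ⊕ (Fin m ⊕ Fin m)) (Unit ⊕ (Fin m ⊕ Fin m)) F).map σ
          = (μ : F) • (B : Matrix (Unit ⊕ (Fin m ⊕ Fin m)) (Unit ⊕ (Fin m ⊕ Fin m)) F) ∧
        ∀ v : Unit ⊕ (Fin m ⊕ Fin m) → F,
          (ν : F) * Cfsg.quadFormOdd m F
              ((B : Matrix (Unit ⊕ (Fin m ⊕ Fin m)) (Unit ⊕ (Fin m ⊕ Fin m)) F) *ᵥ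
                (fun i => σ (v i)))
            = σ ((ν : F) * Cfsg.quadFormOdd m F
              ((B : Matrix (Unit ⊕ (Fin m ⊕ Fin m)) (Unit ⊕ (Fin m ⊕ Fin m)) F) *ᵥ v)))
    (hdesc : ∀ (σ : F ≃+* F) (Q1 : QuadraticForm F (Unit ⊕ (Fin m ⊕ Fin m) → F)),
      (polarBilin Q1).Nondegenerate →
      (∀ v : Unit ⊕ (Fin m ⊕ Fin m) → F, Q1 (fun i => σ (v i)) = σ (Q1 v)) →
      ∃ (R : GL (Unit ⊕ (Fin m ⊕ Fin m)) F) (c : Fˣ),
        (R : Matrix (Unit ⊕ (Fin m ⊕ Fin m)) (Unit ⊕ (Fin m ⊕ Fin m)) F).map σ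
          = (R : Matrix (Unit ⊕ (Fin m ⊕ Fin m)) (Unit ⊕ (Fin m ⊕ Fin m)) F) ∧
        ∀ v : Unit ⊕ (Fin m ⊕ Fin m) → F,
          Q1 ((R : Matrix (Unit ⊕ (Fin m ⊕ Fin m)) (Unit ⊕ (Fin m ⊕ Fin m)) F) *ᵥ v)
            = (c : F) * Cfsg.quadFormOdd m F v)
    (σ : F ≃+* F) (r : ℕ) (hr0 : 0 < r) (hσ : orderOf (σ : RingAut F) = r)
    (g : GL (Unit ⊕ (Fin m ⊕ Fin m)) F)
    (hg : g ∈ Cfsg.Geo.quadSimilarityGroup (F := F) (Cfsg.quadFormOdd m F)) (c : Fˣ)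
    (hN : ((tpow g σ r : GL (Unit ⊕ (Fin m ⊕ Fin m)) F) :
          Matrix (Unit ⊕ (Fin m ⊕ Fin m)) (Unit ⊕ (Fin m ⊕ Fin m)) F)
        = (c : F) • (1 : Matrix (Unit ⊕ (Fin m ⊕ Fin m)) (Unit ⊕ (Fin m ⊕ Fin m)) F)) :
    ∃ (h : GL (Unit ⊕ (Fin m ⊕ Fin m)) F) (μ : Fˣ),
      h ∈ Cfsg.Geo.quadSimilarityGroup (F := F) (Cfsg.quadFormOdd m F) ∧
      (g : Matrix (Unit ⊕ (Fin m ⊕ Fin m)) (Unit ⊕ (Fin m ⊕ Fin m)) F)
          * (h : Matrix (Unit ⊕ (Fin m ⊕ Fin m)) (Unit ⊕ (Fin m ⊕ Fin m)) F).map σ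
        = (μ : F) • (h : Matrix (Unit ⊕ (Fin m ⊕ Fin m)) (Unit ⊕ (Fin m ⊕ Fin m)) F) :=
  Cfsg.Agent.Lib.Helper53.LS.lang_odd hodd m hnorm hdesc σ r hr0 hσ g hg c hN


/-! ## ASSEMBLY (helper52) -/

section Assembly

theorem ind_congr (Q : (ι → F) → F) {β : MulAut (Cfsg.POmega F Q)} {g g' : GL ι F}
    {σ σ' : F ≃+* F} (h : Ind Q β g σ) (hg : mt(g') = mt(g)) (hσ : ∀ x, σ' x = σ x) :
    Ind Q β g' σ' := by
  have e1 : g' = g := Units.ext hg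
  have e2 : σ' = σ := RingEquiv.ext hσ
  rw [e1, e2]
  exact h

theorem ind_smul (Q : QuadraticForm F (ι → F)) {β : MulAut (Cfsg.POmega F ⇑Q)} {g g' : GL ι F}
    {σ : F ≃+* F} (h : Ind ⇑Q β g σ) (c : Fˣ) (hg : mt(g') = (c : F) • mt(g)) :
    Ind ⇑Q β g' σ := by
  have hinv : mt(g'⁻¹) = ((c⁻¹ : Fˣ) : F) • mt(g⁻¹) := by
    have h1 : mt(g') * (((c⁻¹ : Fˣ) : F) • mt(g⁻¹)) = 1 := by
      rw [hg, Matrix.smul_mul, Matrix.mul_smul, smul_smul, ← Units.val_mul, mul_inv_cancel,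
        ← Units.val_mul, mul_inv_cancel, Units.val_one, Units.val_one, one_smul]
    have h2 : mt(g'⁻¹) * (mt(g') * (((c⁻¹ : Fˣ) : F) • mt(g⁻¹))) = mt(g'⁻¹) := by
      rw [h1, mul_one]
    rw [← mul_assoc, ← Units.val_mul, inv_mul_cancel, Units.val_one, one_mul] at h2
    exact h2.symm
  obtain ⟨⟨d, hd⟩, hind⟩ := h
  refine ⟨⟨c * c * d, fun v => ?_⟩, ?_⟩
  · rw [hg, Matrix.smul_mulVec, QuadraticMap.map_smul, hd]
    simp only [Units.val_mul, smul_eq_mul]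
    ring
  · intro s s' hs
    apply hind
    rw [hs, hg, hinv, Matrix.smul_mul, Matrix.smul_mul, Matrix.mul_smul, smul_smul,
      ← Units.val_mul, mul_inv_cancel, Units.val_one, one_smul]

theorem orderOf_conj_eq {A : Type*} [Group A] (h x : A) : orderOf (h * x * h⁻¹) = orderOf x := by
  have := (MulAut.conj h).orderOf_eq x
  simpa [MulAut.conj_apply] using this

/-- The coset-conjugacy statement for a form with prime-field coefficients, given Lang's theorem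
for its similarity group. -/
theorem field_coset_conj [Fintype F] {p f : ℕ} [Fact p.Prime] (hF : Fintype.card F = p ^ f)
    (q : (ι → F) → F) (Q : QuadraticForm F (ι → F)) (hq : ⇑Q = q)
    (hQ : (polarBilin Q).Nondegenerate) (hn : 7 ≤ Fintype.card ι)
    (hγ : Cfsg.gammaPOmega F q = ⊤)
    (hfrob : ∀ σ : F ≃+* F, Cfsg.IsSemisimilarityPair q 1 σ)
    (hlang : ∀ (σ : F ≃+* F) (r : ℕ), 0 < r → orderOf (σ : RingAut F) = r → ∀ (g : GL ι F),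
      g ∈ Cfsg.Geo.quadSimilarityGroup (F := F) q → ∀ c : Fˣ,
      mt(tpow g σ r) = (c : F) • (1 : Matrix ι ι F) →
      ∃ (h : GL ι F) (μ : Fˣ), h ∈ Cfsg.Geo.quadSimilarityGroup (F := F) q ∧
        mt(g) * (mt(h)).map σ = (μ : F) • mt(h))
    (x δ : MulAut (Cfsg.POmega F q)) (hx : Cfsg.IsFieldAutClassPOmega q x) {r : ℕ}
    (hr : r.Prime) (hxr : orderOf x = r) (hδ : δ ∈ Cfsg.pgoAut F q) :
    orderOf (δ * x) = r ↔ Cfsg.IsConjUnder (Cfsg.pgoAut F q) x (δ * x) := by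
  subst hq
  constructor
  swap
  · rintro ⟨h, -, e⟩
    rw [e, orderOf_conj_eq, hxr]
  intro hord
  obtain ⟨ρ, hρ, hker, -, -⟩ := core_data hF Q hQ hn hγ
  obtain ⟨α, φ, σ, hσ1, hφ, hαx⟩ := hx
  have hφI : Ind ⇑Q φ 1 σ := by
    refine ⟨hfrob σ, ?_⟩
    intro s s' hs
    apply hφ
    simpa using hs
  -- the conjugated data
  have hδ' : α * δ * α⁻¹ ∈ Cfsg.pgoAut F ⇑Q := by
    rw [← hker, MonoidHom.mem_ker] at hδ ⊢
    rw [map_mul, map_mul, hδ, mul_one, map_inv, mul_inv_cancel]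
  have hy' : α * δ * α⁻¹ * φ = α * (δ * x) * α⁻¹ := by
    rw [← hαx]
    group
  have hordy : orderOf (α * δ * α⁻¹ * φ) = r := by rw [hy', orderOf_conj_eq, hord]
  have hordφ : orderOf φ = r := by rw [← hαx, orderOf_conj_eq, hxr]
  have hρφ : ρ φ = σ := hρ φ 1 σ hφI
  have hσr : (σ : RingAut F) ^ r = 1 := by
    rw [← hρφ, ← map_pow, ← hordφ, pow_orderOf_eq_one, map_one]
  have hσord : orderOf (σ : RingAut F) = r := by
    have : Fact r.Prime := ⟨hr⟩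
    exact orderOf_eq_prime hσr hσ1
  -- δ' is induced by a similarity
  rw [Cfsg.Agent.Lib.Helper54.pgoAut_eq] at hδ'
  obtain ⟨g, hg⟩ := hδ'
  have hδI : Ind ⇑Q (α * δ * α⁻¹) (g : GL ι F) (RingEquiv.refl F) := by
    rw [← hg]
    refine ⟨?_, (Cfsg.Agent.Lib.Helper54.induced_iff ⇑Q g _).mpr rfl⟩
    obtain ⟨c, hc⟩ := g.2
    exact ⟨c, fun v => by simpa using hc v⟩
  have hyI : Ind ⇑Q (α * δ * α⁻¹ * φ) (g : GL ι F) σ :=
    ind_congr ⇑Q (ind_mul ⇑Q hδI hφI) (by simp) (fun x => rfl)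
  have hpow := ind_pow ⇑Q hyI r
  rw [← hordy, pow_orderOf_eq_one, hordy, hσr] at hpow
  obtain ⟨-, c, hc⟩ := ind_one_scalar Q hQ hn (semi_conj_mem ⇑Q) _ _ hpow
  obtain ⟨h, μ, hh, hgh⟩ := hlang σ r hr.pos hσord (g : GL ι F) g.2 c hc
  -- the conjugating element
  obtain ⟨η, hη⟩ : ∃ η : MulAut (Cfsg.POmega F ⇑Q), η = Cfsg.Agent.Lib.Helper54.simAut ⇑Q ⟨h, hh⟩ :=
    ⟨_, rfl⟩
  have hηI : Ind ⇑Q η h (RingEquiv.refl F) := by
    rw [hη]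
    refine ⟨?_, (Cfsg.Agent.Lib.Helper54.induced_iff ⇑Q ⟨h, hh⟩ _).mpr rfl⟩
    obtain ⟨c, hc⟩ := hh
    exact ⟨c, fun v => by simpa using hc v⟩
  have hηmem : η ∈ Cfsg.pgoAut F ⇑Q := by
    rw [Cfsg.Agent.Lib.Helper54.pgoAut_eq, hη]
    exact ⟨_, rfl⟩
  have hconjI : Ind ⇑Q (η * φ * η⁻¹)
      (h * Matrix.GeneralLinearGroup.map (σ : F →+* F) h⁻¹) σ :=
    ind_congr ⇑Q (ind_mul ⇑Q (ind_mul ⇑Q hηI hφI) (ind_inv ⇑Q hηI)) (by simp)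
      (fun x => rfl)
  have hkey : mt(g) = (μ : F) • mt(h * Matrix.GeneralLinearGroup.map (σ : F →+* F) h⁻¹) := by
    have e1 : mt(Matrix.GeneralLinearGroup.map (σ : F →+* F) h⁻¹) * (mt(h)).map σ = 1 := by
      have : (mt(h)).map σ = mt(Matrix.GeneralLinearGroup.map (σ : F →+* F) h) := by
        ext i j
        rw [Matrix.GeneralLinearGroup.map_apply]
        rfl
      rw [this, ← Units.val_mul, ← map_mul, inv_mul_cancel, map_one, Units.val_one]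
    calc mt(g) = mt(g) * ((mt(h)).map σ * mt(Matrix.GeneralLinearGroup.map (σ : F →+* F) h⁻¹)) := by
          have e2 : (mt(h)).map σ * mt(Matrix.GeneralLinearGroup.map (σ : F →+* F) h⁻¹) = 1 := by
            have : (mt(h)).map σ = mt(Matrix.GeneralLinearGroup.map (σ : F →+* F) h) := by
              ext i j
              rw [Matrix.GeneralLinearGroup.map_apply]
              rfl
            rw [this, ← Units.val_mul, ← map_mul, mul_inv_cancel, map_one, Units.val_one]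
          rw [e2, mul_one]
      _ = (μ : F) • mt(h * Matrix.GeneralLinearGroup.map (σ : F →+* F) h⁻¹) := by
          rw [← mul_assoc, hgh, Matrix.smul_mul, Units.val_mul]
  have hfin : α * δ * α⁻¹ * φ = η * φ * η⁻¹ :=
    ind_eq ⇑Q hyI (ind_smul Q hconjI μ hkey)
  refine ⟨α⁻¹ * η * α, ?_, ?_⟩
  · rw [← hker, MonoidHom.mem_ker] at hηmem ⊢
    rw [map_mul, map_mul, hηmem, mul_one, map_inv, inv_mul_cancel]
  · have e1 : δ * x = α⁻¹ * (α * δ * α⁻¹ * φ) * α := by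
      rw [hy']
      group
    rw [e1, hfin, ← hαx]
    group


theorem r2735 {F : Type*} [Field F] [Fintype F] (hodd : Odd (Fintype.card F)) {m : ℕ} (hm : 3 ≤ m) (x δ : MulAut (Cfsg.POmega F (Cfsg.quadFormOdd m F))) (hx : Cfsg.IsFieldAutClassPOmega (Cfsg.quadFormOdd m F) x) {r : ℕ} (hr : r.Prime) (hxr : orderOf x = r) (hδ : δ ∈ Cfsg.inndiagPOmegaOdd m F) :
    orderOf (δ * x) = r ↔ Cfsg.IsConjUnder (Cfsg.inndiagPOmegaOdd m F) x (δ * x) := by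
  obtain ⟨Q, hq, hQ, hn, h8⟩ := Cfsg.Agent.Lib.Helper51.OAF.odd_data hodd hm
  have hγ : Cfsg.gammaPOmega F (Cfsg.quadFormOdd m F) = ⊤ := by
    rw [← hq]
    exact Cfsg.Agent.Lib.Helper52.OA.gamma_eq_top Q hQ hn h8
  obtain ⟨p, _, n, hp, hF⟩ := FiniteField.card' F
  have : Fact p.Prime := ⟨hp⟩
  have h2 : (2 : F) ≠ 0 := Cfsg.Agent.Lib.Helper51.two_ne_zero_of_odd_card hodd
  have hfrob : ∀ σ : F ≃+* F, Cfsg.IsSemisimilarityPair (Cfsg.quadFormOdd m F) 1 σ := by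
    intro σ
    refine ⟨1, fun v => ?_⟩
    simp [Cfsg.quadFormOdd, map_add, map_sum, map_mul, map_pow]
  have hσinv : ∀ (σ : F ≃+* F) (v : Unit ⊕ (Fin m ⊕ Fin m) → F),
      (QOdd m F) (fun i => σ (v i)) = σ ((QOdd m F) v) := by
    intro σ v
    rw [coe_QOdd]
    simp [Cfsg.quadFormOdd, map_add, map_sum, map_mul, map_pow]
  have hv : ∃ v : Unit ⊕ (Fin m ⊕ Fin m) → F, (QOdd m F) v ≠ 0 := by
    refine ⟨Pi.single (Sum.inl ()) 1, ?_⟩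
    rw [coe_QOdd]
    simp [Cfsg.quadFormOdd]
  have hD : Cfsg.inndiagPOmegaOdd m F = Cfsg.pgoAut F (Cfsg.quadFormOdd m F) := rfl
  rw [hD] at hδ ⊢
  refine field_coset_conj hF _ Q hq hQ hn hγ hfrob
    (lang_odd hodd m ?_ (fun σ Q1 hQ1 hσ => descent_odd h2 m σ Q1 hQ1 hσ)) x δ hx hr hxr hδ
  intro σ r hr0 hσ g hg c hN
  have := lang_norm (QOdd m F) hv σ (hσinv σ) r hr0 hσ g (by rw [coe_QOdd]; exact hg) c hN
  rw [coe_QOdd] at this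
  exact this

end Assembly

end Cfsg.Agent.Lib.Helper52.LSMain
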