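import Mathlib
import Cfsg.Agent.Lib.Helper52.OmegaGeom
import Cfsg.Agent.Lib.Helper51.HypPairs
import Cfsg.Agent.S0831

/-!
The hyperbolic quadratic form `QPlus m F` (`Σ x_i y_i`): a reflection maps a maximal totally
singular subspace to one meeting it in codimension one, so a product of `k` reflections maps a
maximal totally singular subspace `X` to one whose intersection with `X` has codimension of the
parity of `k` (using the two families of maximal totally singular subspaces, `S0831`).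
-/

set_option autoImplicit false
set_option linter.unusedSectionVars false

namespace Cfsg.Agent.Lib.Helper52

open Module QuadraticMap
open Cfsg.Agent.Lib.Helper51

section Inj

variable {ι : Type} [Fintype ι] [DecidableEq ι] {F : Type*} [Field F]
variable (Q : QuadraticForm F (ι → F))

theorem mulVecLin_injective (g : ↥(Cfsg.isometryGroup F ⇑Q)) :
    Function.Injective (Matrix.mulVecLin
      ((g : Matrix.GeneralLinearGroup ι F) : Matrix ι ι F)) := by
  intro x y hxy
  rw [Matrix.mulVecLin_apply, Matrix.mulVecLin_apply] at hxy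
  have := congrArg (fun z => (((g⁻¹ : ↥(Cfsg.isometryGroup F ⇑Q)) :
    Matrix.GeneralLinearGroup ι F) : Matrix ι ι F).mulVec z) hxy
  simpa [coe_inv_mulVec'] using this

theorem finrank_map_isometry (g : ↥(Cfsg.isometryGroup F ⇑Q)) (X : Submodule F (ι → F)) :
    finrank F ↥(X.map (Matrix.mulVecLin
      ((g : Matrix.GeneralLinearGroup ι F) : Matrix ι ι F))) = finrank F X :=
  (LinearEquiv.finrank_eq (Submodule.equivMapOfInjective _ (mulVecLin_injective Q g) X)).symm

theorem ts_map_isometry (g : ↥(Cfsg.isometryGroup F ⇑Q)) (X : Submodule F (ι → F))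
    (hX : ∀ w ∈ X, Q w = 0) :
    ∀ w ∈ X.map (Matrix.mulVecLin ((g : Matrix.GeneralLinearGroup ι F) : Matrix ι ι F)),
      Q w = 0 := by
  rintro w ⟨x, hx, rfl⟩
  rw [Matrix.mulVecLin_apply, isometry_apply]
  exact hX x hx

end Inj

section Plus

variable {F : Type*} [Field F] {m : ℕ}

theorem polarBilin_QPlus : polarBilin (QPlus m F) = Cfsg.Agent.S0832.B m F := by
  apply LinearMap.ext
  intro x
  apply LinearMap.ext
  intro y
  rw [polarBilin_apply_apply, polar_QPlus, Cfsg.Agent.S0832.B_apply]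
  apply Finset.sum_congr rfl
  intro i _
  ring

theorem QPlus_nondegenerate : (polarBilin (QPlus m F)).Nondegenerate := by
  rw [polarBilin_QPlus]
  exact Cfsg.Agent.S0832.B_nondeg

theorem QPlus_eq (w : Fin m ⊕ Fin m → F) : QPlus m F w = Cfsg.quadFormPlus m F w :=
  congrFun (coe_QPlus m F) w

/-- A reflection moves a maximal totally singular subspace to one meeting it in a hyperplane. -/
theorem finrank_inf_map_refl (X : Submodule F (Fin m ⊕ Fin m → F)) (hX : finrank F X = m)
    (hX0 : ∀ w ∈ X, QPlus m F w = 0) (v : Fin m ⊕ Fin m → F) (hv : QPlus m F v ≠ 0) :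
    finrank F ↥(X ⊓ X.map (Matrix.mulVecLin (Cfsg.reflectionMatrix ⇑(QPlus m F) v))) + 1 = m := by
  set Q := QPlus m F with hQdef
  set φ : (Fin m ⊕ Fin m → F) →ₗ[F] F := polarBilin Q v with hφ
  have hφa : ∀ x, φ x = polar ⇑Q v x := fun x => rfl
  have hvX : v ∉ X := fun h => hv (hX0 v h)
  -- the intersection is the kernel of `φ` on `X`
  have hA : X ⊓ X.map (Matrix.mulVecLin (Cfsg.reflectionMatrix ⇑Q v)) = X ⊓ LinearMap.ker φ := by
    apply le_antisymm
    · rintro y ⟨hyX, x, hxX, hxy⟩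
      refine ⟨hyX, ?_⟩
      rw [Matrix.mulVecLin_apply, reflectionMatrix_mulVec] at hxy
      by_cases hc : (Q v)⁻¹ * polar ⇑Q v x = 0
      · rw [hc, zero_smul, sub_zero] at hxy
        show φ y = 0
        rw [hφa, ← hxy]
        rcases mul_eq_zero.mp hc with h | h
        · exact absurd h (inv_ne_zero hv)
        · exact h
      · exfalso
        apply hvX
        have hv' : v = ((Q v)⁻¹ * polar ⇑Q v x)⁻¹ • (x - y) := by
          rw [← hxy, sub_sub_cancel, smul_smul, inv_mul_cancel₀ hc, one_smul]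
        rw [hv']
        exact X.smul_mem _ (X.sub_mem hxX hyX)
    · rintro y ⟨hyX, hyφ⟩
      refine ⟨hyX, y, hyX, ?_⟩
      have hyφ' : polar ⇑Q v y = 0 := LinearMap.mem_ker.mp hyφ
      rw [Matrix.mulVecLin_apply, reflectionMatrix_mulVec, hyφ', mul_zero, zero_smul, sub_zero]
  rw [hA]
  -- `φ` does not vanish on `X`
  obtain ⟨x₀, hx₀X, hx₀⟩ : ∃ x₀ ∈ X, φ x₀ ≠ 0 := by
    by_contra hcon
    push Not at hcon
    apply hvX
    have hXmax : Cfsg.Agent.S0831.IsMaxTS X := ⟨hX, fun w hw => by rw [← QPlus_eq]; exact hX0 w hw⟩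
    rw [← Cfsg.Agent.S0831.max_orth X hXmax, LinearMap.BilinForm.mem_orthogonal_iff]
    intro n hn
    rw [← polarBilin_QPlus, polarBilin_apply_apply, polar_comm]
    exact hcon n hn
  set ψ : X →ₗ[F] F := φ ∘ₗ X.subtype with hψ
  have hsurj : Function.Surjective ψ := by
    intro c
    refine ⟨(c / φ x₀) • ⟨x₀, hx₀X⟩, ?_⟩
    rw [map_smul, smul_eq_mul]
    show c / φ x₀ * φ x₀ = c
    rw [div_mul_cancel₀ _ hx₀]
  have hrange : finrank F (LinearMap.range ψ) = 1 := by
    rw [LinearMap.range_eq_top.mpr hsurj, finrank_top, Module.finrank_self]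
  have hker : finrank F ↥(X ⊓ LinearMap.ker φ) = finrank F (LinearMap.ker ψ) := by
    rw [hψ, LinearMap.ker_comp, ← Submodule.map_comap_subtype, Submodule.finrank_map_subtype_eq]
  have hrn := LinearMap.finrank_range_add_finrank_ker ψ
  rw [hrange, hX] at hrn
  rw [hker]
  omega

/-- The parity of the codimension of `X ∩ gX` for `g` a product of reflections. -/
theorem parity_reflList [Fintype F] (vs : List (Fin m ⊕ Fin m → F))
    (hvs : ∀ v ∈ vs, QPlus m F v ≠ 0) :
    ∀ X : Submodule F (Fin m ⊕ Fin m → F), finrank F X = m → (∀ w ∈ X, QPlus m F w = 0) →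
    (Even (m - finrank F ↥(X ⊓ X.map (Matrix.mulVecLin
      (((reflList (QPlus m F) vs hvs : ↥(Cfsg.isometryGroup F ⇑(QPlus m F))) :
        Matrix.GeneralLinearGroup (Fin m ⊕ Fin m) F) :
          Matrix (Fin m ⊕ Fin m) (Fin m ⊕ Fin m) F)))) ↔ Even vs.length) := by
  induction vs with
  | nil =>
    intro X hX hX0
    rw [reflList_nil]
    have : (((1 : ↥(Cfsg.isometryGroup F ⇑(QPlus m F))) :
        Matrix.GeneralLinearGroup (Fin m ⊕ Fin m) F) :
          Matrix (Fin m ⊕ Fin m) (Fin m ⊕ Fin m) F) = 1 := rfl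
    rw [this, Matrix.mulVecLin_one, Submodule.map_id, inf_idem, hX, Nat.sub_self]
    simp
  | cons v vs ih =>
    intro X hX hX0
    have hvs' : ∀ w ∈ vs, QPlus m F w ≠ 0 := fun w hw => hvs w (List.mem_cons_of_mem _ hw)
    have hv : QPlus m F v ≠ 0 := hvs v List.mem_cons_self
    set g' := reflList (QPlus m F) vs hvs' with hg'
    set Y := X.map (Matrix.mulVecLin
      ((g' : Matrix.GeneralLinearGroup (Fin m ⊕ Fin m) F) :
          Matrix (Fin m ⊕ Fin m) (Fin m ⊕ Fin m) F)) with hY
    have hYr : finrank F Y = m := by rw [hY, finrank_map_isometry, hX]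
    have hY0 : ∀ w ∈ Y, QPlus m F w = 0 := ts_map_isometry (QPlus m F) g' X hX0
    have hmap : X.map (Matrix.mulVecLin
        (((reflList (QPlus m F) (v :: vs) hvs : ↥(Cfsg.isometryGroup F ⇑(QPlus m F))) :
          Matrix.GeneralLinearGroup (Fin m ⊕ Fin m) F) :
            Matrix (Fin m ⊕ Fin m) (Fin m ⊕ Fin m) F))
        = Y.map (Matrix.mulVecLin (Cfsg.reflectionMatrix ⇑(QPlus m F) v)) := by
      rw [reflList_cons, coe_mul', coe_refl, Matrix.mulVecLin_mul, Submodule.map_comp]
    rw [hmap]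
    set Z := Y.map (Matrix.mulVecLin (Cfsg.reflectionMatrix ⇑(QPlus m F) v)) with hZ
    have hZeq : Z = Y.map (Matrix.mulVecLin
        (((refl (QPlus m F) v hv : ↥(Cfsg.isometryGroup F ⇑(QPlus m F))) :
          Matrix.GeneralLinearGroup (Fin m ⊕ Fin m) F) :
            Matrix (Fin m ⊕ Fin m) (Fin m ⊕ Fin m) F)) := by rw [coe_refl]
    have hZr : finrank F Z = m := by rw [hZeq, finrank_map_isometry, hYr]
    have hZ0 : ∀ w ∈ Z, QPlus m F w = 0 := by
      rw [hZeq]; exact ts_map_isometry (QPlus m F) _ Y hY0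
    have h1 := ih hvs' X hX hX0
    have h2 := finrank_inf_map_refl Y hYr hY0 v hv
    have hm : 1 ≤ m := by omega
    have h3 := (Cfsg.Agent.S0831.result (F := F) m hm).1 X Y Z
      ⟨hX, fun w hw => by rw [← QPlus_eq]; exact hX0 w hw⟩
      ⟨hYr, fun w hw => by rw [← QPlus_eq]; exact hY0 w hw⟩
      ⟨hZr, fun w hw => by rw [← QPlus_eq]; exact hZ0 w hw⟩
    rw [← hZ] at h2
    have h4 : m - finrank F ↥(Y ⊓ Z) = 1 := by omega
    rw [h4] at h3
    rw [List.length_cons, Nat.even_add_one, ← h1]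
    rw [← hY] at h1 ⊢
    rw [Nat.even_add, Nat.even_add_one] at h3
    tauto

end Plus

end Cfsg.Agent.Lib.Helper52
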