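import Mathlib
import Cfsg.Prelude.Def_Classical
import Cfsg.Agent.Lib.Helper93.Sp4Defs
import Cfsg.Agent.S0246

/-!
S2293 piece SP4-CENTER (for helper93): `(sTa F)^2 = -1` is central in `Sp₄(F)`, and
`|Sp₄(F)| ≤ gcd(2, q-1) · |PSp₄(F)|` (in fact equality), from the order of the centre
`Cfsg.Agent.S0246.result`.
-/

set_option autoImplicit false

namespace Cfsg.Agent.Lib.Helper93.Sp4

open Polynomial Matrix

variable {F : Type*} [Field F]

/-- CENTER -/
theorem sp4_center [Fintype F] :
    (sTa F) ^ 2 ∈ Subgroup.center (symplecticGroup (Fin 2) F) ∧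
    Nat.card (symplecticGroup (Fin 2) F) ≤
      Nat.gcd 2 (Fintype.card F - 1) * Nat.card (Cfsg.PSp 2 F) := by
  refine ⟨?_, ?_⟩
  · have hsq : ((sTa F) ^ 2).1 = -1 := by
      rw [pow_two]
      show (sTa F).1 * (sTa F).1 = -1
      rw [sTa_val, Matrix.fromBlocks_multiply]
      ext i j
      rcases i with i | i <;> rcases j with j | j <;> fin_cases i <;> fin_cases j <;>
        simp [Matrix.neg_apply]
    rw [Subgroup.mem_center_iff]
    intro g
    apply Subtype.ext
    show g.1 * ((sTa F) ^ 2).1 = ((sTa F) ^ 2).1 * g.1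
    rw [hsq]
    simp
  · have h2 := Subgroup.card_eq_card_quotient_mul_card_subgroup
      (Subgroup.center (Matrix.symplecticGroup (Fin 2) F))
    have h4 := Cfsg.Agent.S0246.result (F := F) (q := Fintype.card F) rfl 2 (by norm_num)
    have h6 : Nat.card (Cfsg.PSp 2 F) = Nat.card (Matrix.symplecticGroup (Fin 2) F ⧸
        Subgroup.center (Matrix.symplecticGroup (Fin 2) F)) := rfl
    rw [h6, h2, h4, mul_comm]

end Cfsg.Agent.Lib.Helper93.Sp4
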