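import Mathlib
import Cfsg.Agent.Lib.Helper93.Sp4Defs
import Cfsg.Agent.S0245

/-!
S2293 piece SP4-MATCARD (for helper93): the order of `Sp₄(q)`, read off the general
order formula `Cfsg.Agent.S0245.result`.
-/

set_option autoImplicit false

namespace Cfsg.Agent.Lib.Helper93.Sp4

open Polynomial Matrix

variable {F : Type*} [Field F]

/-- MATCARD -/
theorem card_Sp4 [Fintype F] : Nat.card (symplecticGroup (Fin 2) F) =
    Fintype.card F ^ 4 * (Fintype.card F ^ 2 - 1) * (Fintype.card F ^ 4 - 1) := by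
  have h3 := Cfsg.Agent.S0245.result (F := F) (q := Fintype.card F) rfl 2
  have h5 : ∏ i ∈ Finset.range 2, (Fintype.card F ^ (2 * (i + 1)) - 1) =
      (Fintype.card F ^ 2 - 1) * (Fintype.card F ^ 4 - 1) := by
    simp [Finset.prod_range_succ]
  rw [h3, h5]
  ring

end Cfsg.Agent.Lib.Helper93.Sp4
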